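import Mathlib
import Cfsg.Agent.H50.E83Defs

/-! Two more statements of pieces. -/

set_option autoImplicit false

namespace Cfsg.Agent.H50.E83

open Equiv Cfsg.Lie H37 H40 H34 H29 Module
open scoped Matrix

/-- The number of positive roots of `Ψ` made negative by `w`. -/
noncomputable def lenP (Ψ : Rt → Prop) (w : Perm Rt) : ℕ :=
  {r | Ψ r ∧ C8.R.Pos r ∧ ¬ C8.R.Pos (w r)}.ncard

def T1aStmt : Prop := ∀ Ψ : Rt → Prop, (∀ r, Ψ r → Ψ (C8.R.neg r)) →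
  (∀ r s, Ψ r → Ψ s → Ψ (C8.R.τ r s)) → ∀ w ∈ C8.S.W, w * w = 1 → (∀ r, Ψ r → Ψ (w r)) →
  (∃ r, Ψ r ∧ C8.R.Pos r ∧ ¬ C8.R.Pos (w r)) → ∃ β, Ψ β ∧ C8.R.Pos β ∧
    (w β = C8.R.neg β ∧ lenP Ψ (C8.R.τ β * w) < lenP Ψ w ∨
      lenP Ψ (C8.R.τ β * w * C8.R.τ β) < lenP Ψ w)

open Classical in
def LamDStmt : Prop := ∀ (d : Fin 16 → K) (c : K), finrank K (skE (Matrix.diagonal d) c) =
  (Finset.univ.filter fun p : Fin 16 × Fin 16 => p.1 < p.2 ∧ d p.1 * d p.2 = c).card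

/-- A unipotent element of order three commuting with a torus element. -/
def UniStmt : Prop := ∀ (ζ : Kˣ) (s : ℕ) (h b : GK) (f : Rt → ℤ), IsPrimitiveRoot ζ s → Lab C8 ζ h f →
  Commute h b → b ^ 3 = 1 → ∀ T : Finset ℤ, (∀ k ∈ T, ∀ l ∈ T, (k : ZMod s) = l → k = l) →
  ∑ k ∈ T, (mu h ((ζ ^ k : Kˣ) : K) + 2) / 3 ≤ mu b 1

end Cfsg.Agent.H50.E83
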