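import Mathlib
import Cfsg.Agent.H50.E83Defs2

/-! Semisimple elements, the case `L₂(41)`, and the assembly of the four cases. -/

set_option autoImplicit false

namespace Cfsg.Agent.H50.E83

open Equiv Cfsg.Lie H37 H40 H34 H29 Module
open scoped Matrix MatrixGroups

theorem ss : SsStmt := by
  intro g s ζ hs hζ hg
  have h33 : Fact (Nat.Prime 3) := ⟨Nat.prime_three⟩
  have hs0 : s ≠ 0 := by rintro rfl; simp at hs
  obtain ⟨w, c, e1, e2⟩ := (C8.semisimple_classes invE8 one_ne_zero (algebraMap (ZMod 3) K) (ZMod.card 3)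
    (by decide) 3).2 g (hs.coprime_dvd_left (orderOf_dvd_of_pow_eq_one hg))
  have t5 : C8.tg K c ^ s = 1 := by
    have := e2.pow s
    rwa [← map_pow _ g, hg, map_one, isConj_one_left] at this
  obtain ⟨f, hf⟩ := exists_lab (C := C8) hζ hs0 (Cert.tg_mem_H c) t5
  have t6 : ∀ r : Rt, torChar chevE8 c r = ζ ^ f r := fun r => by
    obtain ⟨-, d, h1, h2⟩ := hf
    rw [← h2, Cert.tg_eq_iff'.1 h1]
  refine ⟨_, f, hf, e2, w.1, w.2, fun r => ?_⟩
  have := (C8.rep_mat w).torChar_pull c r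
  rw [e1, torChar_eq_evw (c ^ 3), evw_pow, ← torChar_eq_evw, t6, t6, ← zpow_natCast _ 3,
    ← zpow_mul, mul_comm] at this
  simpa using ((zpow_eq_iff hζ).1 this).symm

theorem embA {F : Type*} [Field F] [Fintype F] (h : Fintype.card F = 41) : CfgA PSL(2, F) := by
  have hp : Fact (Nat.Prime 41) := ⟨by norm_num⟩
  have hF : CharP F 41 := by
    obtain ⟨p, hp, m, hp', hm⟩ := FiniteField.card' F
    obtain rfl : p = 41 := (Nat.prime_dvd_prime_iff_eq hp' (by norm_num)).1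
      (h ▸ hm ▸ dvd_pow_self p m.ne_zero)
    exact hp
  have h41 : (41 : F) = 0 := CharP.cast_eq_zero F 41
  let u : ℕ → SL(2, F) := fun k => ⟨!![1, k; 0, 1], by simp [Matrix.det_fin_two]⟩
  have hu : ∀ k, u 1 ^ k = u k := fun k => by
    induction k with
    | zero => rw [pow_zero]; ext i j; fin_cases i <;> fin_cases j <;> simp [u]
    | succ k ih =>
      rw [pow_succ, ih]; ext i j
      rw [Matrix.SpecialLinearGroup.coe_mul]
      fin_cases i <;> fin_cases j <;> simp [u, add_comm]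
  let y : SL(2, F) := ⟨!![6, 0; 0, 7], by
    simp only [Matrix.det_fin_two_of]; linear_combination h41⟩
  refine ⟨QuotientGroup.mk' _ (u 1), QuotientGroup.mk' _ y, ?_, ?_, ?_⟩
  · rw [← map_pow, hu]
    have : u 41 = 1 := by ext i j; fin_cases i <;> fin_cases j <;> simp [u, h41]
    rw [this, map_one]
  · rw [Ne, QuotientGroup.mk'_apply, QuotientGroup.eq_one_iff, Matrix.SpecialLinearGroup.mem_center_iff]
    rintro ⟨r, -, hr⟩
    have := congrFun (congrFun hr 0) 1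
    simp [u] at this
  · rw [← map_pow, hu, mul_inv_eq_iff_eq_mul, ← map_mul, ← map_mul]
    congr 1
    ext i j
    rw [Matrix.SpecialLinearGroup.coe_mul, Matrix.SpecialLinearGroup.coe_mul]
    fin_cases i <;> fin_cases j <;> simp [u, y]
    linear_combination (-6) * h41

theorem noA (c41 : C41Stmt) : ¬ CfgA G0 := by
  rintro ⟨x, y, h1, h2, h3⟩
  obtain ⟨ζ, hζ, -⟩ := exists_prim_unit K (N := 41) (by
    rw [Ne, CharP.cast_eq_zero_iff K 3]; decide)
  obtain ⟨h, f, hl, hc, w, hw, e⟩ := ss x 41 ζ (by decide) hζ h1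
  obtain ⟨c, hc⟩ := isConj_iff.1 hc
  obtain ⟨v, hv, e'⟩ := exists_act_pow hζ hl (y := c⁻¹ * ι y * c) (k := 36) (by
    have h4 : h = c⁻¹ * ι x * c := by rw [← hc]; group
    rw [h4, conj_pow'', ← map_pow, ← h3, map_mul, map_mul, map_inv]; group)
  have := c41 f hl.1 (w * v) (mul_mem hw hv) fun r => by
    rw [Perm.mul_apply, e, e', ← mul_assoc]; congr 1
  rw [← hl.eq_one_iff hζ] at this
  rw [this, mul_one, mul_inv_cancel, eq_comm, map_eq_one_iff _ ι_injective] at hc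
  exact h2 hc

section map
variable {Γ Δ : Type*} [Group Γ] [Group Δ] (φ : Γ →* Δ) (hφ : Function.Injective φ)
include hφ

theorem CfgA.map (h : CfgA Γ) : CfgA Δ := by
  obtain ⟨x, y, h1, h2, h3⟩ := h
  exact ⟨φ x, φ y, by rw [← map_pow, h1, map_one], by rwa [Ne, map_eq_one_iff _ hφ], by
    rw [← map_pow, ← h3, map_mul, map_mul, map_inv]⟩

theorem CfgL.map (h : CfgL Γ) : CfgL Δ := by
  obtain ⟨a, b, y, t, u, h1, h2, h3, h4, h5, h6, h7, h8, h9, h10, h11, h12⟩ := h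
  refine ⟨φ a, φ b, φ y, φ t, φ.comp u, by rw [← map_mul, h1, map_one], by rwa [Ne, map_eq_one_iff _ hφ],
    by rw [← map_pow, h3, map_one], by rw [← map_mul, ← map_pow, h4, map_one],
    by rwa [← map_mul, Ne, map_eq_one_iff _ hφ], by rw [← map_pow, h6, map_one],
    by rwa [Ne, map_eq_one_iff _ hφ], h8.map φ, by rw [← map_inv, ← map_mul, ← map_mul, h9, map_inv],
    φ.map_isConj h10, fun e he => φ.map_isConj (h11 e he), fun e => ?_⟩
  have := Subgroup.mem_map_of_mem φ (h12 e)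
  rwa [MonoidHom.map_closure, Set.image_pair] at this

omit hφ in
theorem RelU.map {x : Multiplicative E4 →* Γ} {a y : Γ} (h : RelU x a y) :
    RelU (φ.comp x) (φ a) (φ y) where
  aa := by rw [← map_mul, h.aa, map_one]
  y3 := by rw [← map_pow, h.y3, map_one]
  ax e := by simp only [MonoidHom.comp_apply, ← h.ax, map_mul, map_inv]
  yx e := by simp only [MonoidHom.comp_apply, ← h.yx, map_mul, map_inv]
  abc := by
    obtain ⟨e, he⟩ := h.abc
    exact ⟨e, by simp only [MonoidHom.comp_apply, he, map_mul, map_inv, map_pow]⟩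

theorem CfgU.map (h : CfgU Γ) : CfgU Δ := by
  obtain ⟨x, a, y, h1, h2, h3⟩ := h
  exact ⟨φ.comp x, φ a, φ y, h1.map φ, fun e he => by
    rw [MonoidHom.comp_apply, Ne, map_eq_one_iff _ hφ]; exact h2 e he,
    fun e e' he he' => φ.map_isConj (h3 e e' he he')⟩

theorem CfgS.map (h : CfgS Γ) : CfgS Δ := by
  obtain ⟨ψ, h1, h2⟩ := h
  exact ⟨φ.comp ψ, fun g => by rw [MonoidHom.comp_apply, map_eq_one_iff _ hφ, h1],
    fun g g' e => φ.map_isConj (h2 g g' e)⟩

end map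

theorem tau_conj (mu : MuStmt) {g g' : GK} (h : IsConj g g') : tau g = tau g' := by
  rw [tau, tau, mu.1 _ _ _ h, mu.1 _ _ _ h]

theorem noU (mu : MuStmt) (tr : Tr4Stmt) (n2 : Not2AStmt) (tor : TorStmt) (lat : LatStmt) :
    ¬ CfgU G0 := by
  rintro ⟨x, a, y, h1, h2, h3⟩
  have hsq : ∀ e : Multiplicative E4, e ^ 2 = 1 := by decide
  let e0 : Multiplicative E4 := Multiplicative.ofAdd ![1, 0, 0, 0]
  have he0 : e0 ≠ 1 := by decide
  have h4 : x e0 ^ 2 = 1 := by rw [← map_pow, hsq, map_one]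
  have h5 : ∀ e, e ≠ 1 → tau (ι (x e)) = tau (ι (x e0)) := fun e he =>
    tau_conj mu (ι.map_isConj (h3 e e0 he he0))
  rcases (tr (x e0) ((pow_mul _ 2 2).trans (by rw [h4, one_pow]))).1 h4 (h2 e0 he0) with h | h
  · obtain ⟨g, hg⟩ := tor (ι.comp x) fun e he => (h5 e he).trans h
    refine lat _ _ _ ((h1.map ι).map (MulAut.conj g).toMonoidHom) hg fun e he => ?_
    rw [← h, ← h5 e he]
    exact (tau_conj mu (isConj_iff.2 ⟨g, rfl⟩)).symm
  · exact n2 x a y h1 fun e he => (h5 e he).trans h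

theorem noS (cnt : CntStmt) (lift : LiftStmt) (fin : FinStmt) : ¬ CfgS G0 := by
  rintro ⟨φ, h1, h2⟩
  obtain ⟨L, hL⟩ := lift _ (cnt φ h1 h2)
  exact fin L hL

theorem isEmpty_of {Γ : Type*} [Group Γ] (H : Subgroup G0)
    (h : ∀ φ : Γ →* G0, Function.Injective φ → False) : IsEmpty (H ≃* Γ) :=
  ⟨fun e => h (H.subtype.comp e.symm.toMonoidHom) (H.subtype_injective.comp e.symm.injective)⟩

theorem final {F₁ F₂ F₃ : Type*} [Field F₁] [Fintype F₁] (h41 : Fintype.card F₁ = 41) [Field F₂]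
    [Fintype F₂] [Field F₃] (H : Subgroup G0) (c41 : C41Stmt)
    (eL : CfgL PSL(2, F₂)) (nL : L32Stmt) (eU : CfgU (Cfsg.PSU 4 F₃ 3)) (nU : ¬ CfgU G0)
    (eS : EmbSStmt) (nS : ¬ CfgS G0) :
    IsEmpty (H ≃* PSL(2, F₁)) ∧ IsEmpty (H ≃* PSL(2, F₂)) ∧ IsEmpty (H ≃* Cfsg.PSU 4 F₃ 3) ∧
      IsEmpty (H ≃* Cfsg.PSp 3 (ZMod 3)) :=
  ⟨isEmpty_of H fun φ hφ => noA c41 ((embA h41).map φ hφ), isEmpty_of H fun φ hφ => nL (eL.map φ hφ),
    isEmpty_of H fun φ hφ => nU (eU.map φ hφ), isEmpty_of H fun φ hφ => nS (CfgS.map φ hφ eS)⟩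

end Cfsg.Agent.H50.E83
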