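import Mathlib
import Cfsg.Agent.H50.E83Defs2

/-! Eigenspaces of torus elements and of involutions on the adjoint module. -/

set_option autoImplicit false

namespace Cfsg.Agent.H50.E83

open Equiv Cfsg.Lie H37 H40 H34 H29 Module
open scoped Matrix

theorem two_ne : (2 : K) ≠ 0 := by
  have : ((2 : ℕ) : K) ≠ 0 := by rw [Ne, CharP.cast_eq_zero_iff K 3]; decide
  simpa using this

theorem prim2 : IsPrimitiveRoot (-1 : Kˣ) 2 := by
  rw [← IsPrimitiveRoot.coe_units_iff]
  exact IsPrimitiveRoot.neg_one 3 (by decide)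

theorem finrank_supp {ι F : Type*} [Fintype ι] [Field F] (p : ι → Prop) [DecidablePred p]
    (W : Submodule F (ι → F)) (h : ∀ v, v ∈ W ↔ ∀ i, ¬ p i → v i = 0) :
    finrank F W = ∑ i, if p i then 1 else 0 := by
  classical
  let e : W ≃ₗ[F] ({i // p i} → F) :=
    { toFun := fun v i => v.1 i
      map_add' := fun _ _ => rfl
      map_smul' := fun _ _ => rfl
      invFun := fun f => ⟨fun i => if hi : p i then f ⟨i, hi⟩ else 0, (h _).2 fun i hi => dif_neg hi⟩
      left_inv := fun v => Subtype.ext (funext fun i => by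
        by_cases hi : p i
        · exact dif_pos hi
        · exact (dif_neg hi).trans ((h _).1 v.2 i hi).symm)
      right_inv := fun f => funext fun i => dif_pos i.2 }
  rw [e.finrank_eq, finrank_fintype_fun_eq_card, Fintype.card_subtype, Finset.card_filter]

theorem finrank_V : finrank K V = 248 := by
  rw [finrank_fintype_fun_eq_card]; simp [ChevalleyDatum.Idx]; rfl

theorem act_inv (g : GK) (v : V) : act g⁻¹ (act g v) = v := by
  rw [← Module.End.mul_apply, ← map_mul, inv_mul_cancel, map_one, Module.End.one_apply]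

theorem mu_le (c g : GK) (ζ : K) : mu g ζ ≤ mu (c * g * c⁻¹) ζ := by
  refine LinearMap.finrank_le_finrank_of_injective (f := (act c).restrict (p := eig g ζ)
    (q := eig (c * g * c⁻¹) ζ) fun v hv => ?_) fun v w h => Subtype.ext ?_
  · rw [mem_eig] at hv ⊢
    rw [map_mul, map_mul, Module.End.mul_apply, Module.End.mul_apply, act_inv, hv, map_smul]
  · rw [← act_inv c v, ← act_inv c w]
    exact congrArg _ (congrArg Subtype.val h)

theorem mu_conj {g g' : GK} (ζ : K) (h : IsConj g g') : mu g ζ = mu g' ζ := by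
  obtain ⟨c, rfl⟩ := isConj_iff.1 h
  refine (mu_le c g ζ).antisymm ?_
  simpa [mul_assoc] using mu_le c⁻¹ (c * g * c⁻¹) ζ

theorem act_lab {ζ : Kˣ} {h : GK} {f : Rt → ℤ} (hl : Lab C8 ζ h f) (v : V) :
    (∀ i, act h v (Sum.inl i) = v (Sum.inl i)) ∧
      ∀ r, act h v (Sum.inr r) = ((ζ ^ f r : Kˣ) : K) * v (Sum.inr r) := by
  obtain ⟨-, c, rfl, hc⟩ := hl
  have : ((C8.tg K c).1.1 : Matrix chevE8.Idx chevE8.Idx K) = chevE8.charDiag K (torChar chevE8 c) := rfl
  refine ⟨fun i => ?_, fun r => ?_⟩ <;>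
    simp only [act_apply, this, ChevalleyDatum.charDiag, Matrix.mulVec_diagonal, Sum.elim_inl,
      Sum.elim_inr, one_mul, hc]

theorem mem_eig_lab {ζ : Kˣ} {h : GK} {f : Rt → ℤ} (hl : Lab C8 ζ h f) (η : K) (v : V) :
    v ∈ eig h η ↔ (η ≠ 1 → ∀ i, v (Sum.inl i) = 0) ∧
      ∀ r, ((ζ ^ f r : Kˣ) : K) ≠ η → v (Sum.inr r) = 0 := by
  rw [mem_eig, funext_iff, Sum.forall]
  refine and_congr ?_ (forall_congr' fun r => ?_)
  · simp only [(act_lab hl v).1, Pi.smul_apply, smul_eq_mul]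
    refine ⟨fun h h1 i => ?_, fun h i => ?_⟩
    · by_contra h2
      exact h1 ((mul_eq_right₀ h2).1 (h i).symm)
    · by_cases h1 : η = 1
      · rw [h1, one_mul]
      · rw [h h1 i, mul_zero]
  · rw [(act_lab hl v).2, Pi.smul_apply, smul_eq_mul, mul_eq_mul_right_iff, or_iff_not_imp_left]

theorem mu_lab {ζ : Kˣ} {s : ℕ} {h : GK} {f : Rt → ℤ} (hζ : IsPrimitiveRoot ζ s) (hl : Lab C8 ζ h f)
    (k : ℤ) : mu h ((ζ ^ k : Kˣ) : K) =
      (if (k : ZMod s) = 0 then 8 else 0) + z0 s fun r => f r - k := by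
  classical
  have e1 : ((ζ ^ k : Kˣ) : K) = 1 ↔ (k : ZMod s) = 0 := by
    rw [Units.val_eq_one, ← zpow_zero ζ, zpow_eq_iff hζ, Int.cast_zero]
  have e2 : ∀ r, ((ζ ^ f r : Kˣ) : K) = ((ζ ^ k : Kˣ) : K) ↔ ((f r - k : ℤ) : ZMod s) = 0 := fun r => by
    rw [Units.val_inj, zpow_eq_iff hζ, Int.cast_sub, sub_eq_zero]
  rw [mu, finrank_supp (Sum.elim (fun _ => (k : ZMod s) = 0) fun r => ((f r - k : ℤ) : ZMod s) = 0) _
    fun v => by
      rw [mem_eig_lab hl, Sum.forall]
      simp only [Ne, e1, e2, Sum.elim_inl, Sum.elim_inr]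
      exact and_congr_left' forall_comm, Fintype.sum_sum_type, z0]
  refine congrArg₂ _ ?_ (Finset.sum_congr rfl fun r _ => if_congr Iff.rfl rfl rfl)
  split_ifs with hk
  · exact (Finset.sum_congr rfl fun i _ => if_pos hk).trans (by simp; rfl)
  · exact Finset.sum_eq_zero fun i _ => if_neg hk

theorem tau_lab {h : GK} {f : Rt → ℤ} (hl : Lab C8 (-1) h f) : tau h = 2 * (z0 2 f : ℤ) - 232 := by
  have h0 := mu_lab prim2 hl 0
  have h1 := mu_lab prim2 hl 1
  simp only [zpow_zero, Units.val_one, Int.cast_zero, if_true, sub_zero, zpow_one, Units.val_neg,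
    Int.cast_one, one_ne_zero, if_false, zero_add] at h0 h1
  have h2 : z0 2 f + z0 2 (fun r => f r - 1) = 240 := by
    rw [z0, z0, ← Finset.sum_add_distrib]
    refine (Finset.sum_congr rfl fun r _ => ?_).trans (show ∑ _r : Rt, 1 = 240 by simp; rfl)
    push_cast
    generalize (f r : ZMod 2) = x
    revert x; decide
  change _ = 8 + z0 2 f at h0
  rw [tau, h0, h1]; omega

theorem mu_add {g : GK} (hg : g * g = 1) : mu g 1 + mu g (-1) = 248 := by
  have h2 : ∀ v, act g (act g v) = v := fun v => by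
    rw [← Module.End.mul_apply, ← map_mul, hg, map_one, Module.End.one_apply]
  rw [← finrank_V]
  refine Submodule.finrank_add_eq_of_isCompl ⟨Submodule.disjoint_def.2 fun v h1 h3 => ?_,
    codisjoint_iff_le_sup.2 fun v _ => ?_⟩
  · rw [mem_eig] at h1 h3
    have : (2 : K) • v = 0 := by
      rw [two_smul]; nth_rw 1 [← one_smul K v, ← h1]; rw [h3, neg_one_smul, neg_add_cancel]
    exact (smul_eq_zero.1 this).resolve_left two_ne
  · refine Submodule.mem_sup.2 ⟨(2 : K)⁻¹ • (v + act g v), Submodule.smul_mem _ _ ?_,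
      (2 : K)⁻¹ • (v - act g v), Submodule.smul_mem _ _ ?_, ?_⟩
    · rw [mem_eig, map_add, h2, one_smul, add_comm]
    · rw [mem_eig, map_sub, h2, neg_one_smul, neg_sub]
    · rw [← smul_add, add_add_sub_cancel, ← two_smul K, smul_smul, inv_mul_cancel₀ two_ne, one_smul]

theorem tau_one : tau 1 = 248 := by
  rw [tau_lab lab_one, z0]; simp; rfl

theorem muStmt : MuStmt :=
  ⟨fun _ _ ζ h => mu_conj ζ h, fun _ _ _ hl => mem_eig_lab hl, fun _ _ _ _ hζ hl => mu_lab hζ hl,
    fun _ _ => tau_lab, fun _ => mu_add, tau_one⟩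

end Cfsg.Agent.H50.E83
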