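import Mathlib
import Cfsg.Agent.H50.E83Defs2

/-! The action of the monomial subgroup on the adjoint module; `-1` lies in the Weyl group. -/

set_option autoImplicit false

namespace Cfsg.Agent.H50.E83

open Equiv Cfsg.Lie H37 H40 H34 H29 Module
open scoped Matrix

theorem nW_act (l : List (Fin chevE8.rank)) : (∃ c : Rt → Kˣ, ∀ r : Rt,
    (Cert.nW K chevE8 l).1 *ᵥ eV chevE8 K r = (c r : K) • eV chevE8 K (C8.S.word l r)) ∧
    ∀ r : Rt, (Cert.nW K chevE8 l).1 *ᵥ hR chevE8 K r = hR chevE8 K (C8.S.word l r) := by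
  induction l with
  | nil => exact ⟨⟨1, fun r => by simp [Cert.nW_nil]⟩, fun r => by simp [Cert.nW_nil]⟩
  | cons i l ih =>
    obtain ⟨⟨c, h1⟩, h2⟩ := ih
    have N := C8.V.nForm_simple (F := K) i.2
    have e : ∀ r, ((C8.S.word (i :: l) r : Rt) : ℕ) = chevE8.reflectRoot i (C8.S.word l r) := fun r => by
      rw [SignedSys.word_cons, Perm.mul_apply, sgn_s, RS.σ_apply, C8.refl_val]
    refine ⟨⟨fun r => c r * Units.mk0 ((C8.V.η i (C8.S.word l r) : ℤ) : K)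
      (left_ne_zero_of_mul_eq_one ((C8.V.aut i i.2).sqF (C8.S.word l r).2)), fun r => ?_⟩, fun r => ?_⟩
    · rw [Cert.nW_cons, Units.val_mul, ← Matrix.mulVec_mulVec, h1, Matrix.mulVec_smul, C8.V.coe_nG,
        N.eV 1 one_ne_zero _ (C8.S.word l r).2, e, smul_smul, one_zpow, mul_one]
      rfl
    · rw [Cert.nW_cons, Units.val_mul, ← Matrix.mulVec_mulVec, h2, C8.V.coe_nG,
        N.hR 1 one_ne_zero _ (C8.S.word l r).2, e]

set_option maxRecDepth 100000 in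
theorem nact : NactStmt := by
  intro n hn
  obtain ⟨h, hh, l, e⟩ := Cert.exists_nW (C := C8) (F := K) (n := n.1) hn
  have e1 : P8.ν n = C8.S.word l := by
    have := ((Cert.lifts_H (C := C8) hh).mul (Cert.lifts_nW l) (C8.S.word_mem_W l)).nu_eq
      (mul_mem (one_mem _) (C8.S.word_mem_W l))
    rw [← e, one_mul] at this
    exact this
  obtain ⟨χ, -, rfl⟩ := C8.V.diag_le_hatH hh
  obtain ⟨⟨c, h1⟩, h2⟩ := nW_act l
  refine ⟨⟨fun r => c r * χ (C8.S.word l r), fun r => ?_⟩, fun r => ?_⟩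
  · rw [act_apply, e, e1, Units.val_mul, ← Matrix.mulVec_mulVec, h1, Matrix.mulVec_smul, coe_dG,
      charDiag_eV, smul_smul, Units.val_mul]
  · rw [act_apply, e, e1, Units.val_mul, ← Matrix.mulVec_mulVec, h2, coe_dG, charDiag_hR]

def cartE8 : List (List ℤ) := [[2, 0, -1, 0, 0, 0, 0, 0], [0, 2, 0, -1, 0, 0, 0, 0],
  [-1, 0, 2, -1, 0, 0, 0, 0], [0, -1, -1, 2, -1, 0, 0, 0], [0, 0, 0, -1, 2, -1, 0, 0],
  [0, 0, 0, 0, -1, 2, -1, 0], [0, 0, 0, 0, 0, -1, 2, -1], [0, 0, 0, 0, 0, 0, -1, 2]]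

def genA : List ℕ := [1, 13, 13 ^ 2, 13 ^ 3, 13 ^ 4, 13 ^ 5, 13 ^ 6, 13 ^ 7]

theorem negW : NegStmt := by
  obtain ⟨w, hw, h⟩ := (rp_vN C8 (13 ^ 8) genA).word (by decide) (A := cartE8) (by decide +kernel)
    ((List.replicate 15 (List.finRange chevE8.rank)).flatten) (isAdd_vN C8 genA)
  have e : (((List.replicate 15 (List.finRange chevE8.rank)).flatten).map Fin.val).foldl
      (svN (13 ^ 8) cartE8) genA = genA.map (13 ^ 8 - ·) := by decide +kernel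
  rw [e] at h
  refine ⟨w, hw, fun r => ?_⟩
  have h1 := h.vN_eq ((isAdd_vN C8 genA).comp hw) r
  have h2 : ∀ r s : Rt, ((∑ j : Fin chevE8.rank, gt rcE8 r j * ((genA.map (13 ^ 8 - ·)).getD j 0 : ℕ)) -
      ∑ j : Fin chevE8.rank, gt rcE8 s j * (genA.getD j 0 : ℕ)) % (13 ^ 8 : ℕ) = 0 →
      (s : ℕ) = chevE8.neg r := by decide +kernel
  refine Fin.ext ((h2 r _ ?_).trans (C8.neg_val r).symm)
  simp only [vN, rc_eq C8 tabOKE8] at h1
  exact Int.emod_eq_zero_of_dvd ((ZMod.intCast_eq_intCast_iff_dvd_sub _ _ _).1 h1.symm)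

end Cfsg.Agent.H50.E83
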