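import Mathlib
import Cfsg.Agent.H50.E8Chk

/-! Finite checks for elements of order `365` in `E₈(3)`. -/

set_option autoImplicit false
set_option maxRecDepth 100000

namespace Cfsg.Agent.H50.E8L

theorem full73_4 :
    full 6 73 5 220 146 [1, 2, 4, 5, 7, 13] gr73 pp73 pm73 dat73 4 = true := by decide +kernel

end Cfsg.Agent.H50.E8L
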