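import Mathlib
import Cfsg.Agent.H50.E8Chk

/-! Meaning of the finite checks for `E₈(3)`. -/

set_option autoImplicit false

namespace Cfsg.Agent.H50.E8L

open Equiv Cfsg.Lie H37 H40 H34 H29 Finset

theorem testBit_mk {L : List ℕ} {e : ℕ} : (mk L).testBit e = true ↔ e ∈ L := by
  induction L with
  | nil => simp [mk]
  | cons x L ih =>
    show (mk L ||| 1 <<< x).testBit e = true ↔ _
    rw [Nat.testBit_or, Bool.or_eq_true, ih, Nat.one_shiftLeft, Nat.testBit_two_pow, List.mem_cons,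
      or_comm, decide_eq_true_eq, eq_comm]

theorem sub_of {a S : ℕ} (h : ∀ e, a.testBit e = true → S.testBit e = true) : sub a S = true := by
  rw [sub, Nat.beq_eq]
  refine Nat.eq_of_testBit_eq fun e => ?_
  show (a &&& S).testBit e = _
  rw [Nat.testBit_and]
  cases h1 : a.testBit e
  · rfl
  · rw [h e h1]; rfl

theorem testBit_cov {S a e : ℕ} {MS : List ℕ} (ha : a ∈ MS) (h : sub a S = true)
    (he : a.testBit e = true) : (cov S MS).testBit e = true := by
  induction MS with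
  | nil => simp at ha
  | cons x MS ih =>
    show (Bool.rec (cov S MS) (cov S MS ||| x) (sub x S) : ℕ).testBit e = true
    rcases List.mem_cons.1 ha with rfl | ha
    · rw [h]; simp [he]
    · cases sub x S <;> simp [ih ha]

theorem hchk_spec {sp : ℕ → List ℕ} {G B L R : List ℕ} {Pp Pm : ℕ}
    (h : hchk (G.map fun r => mk (sp r)) (B.map fun r => mk (sp r)) Pp Pm L = true)
    (hg : ∀ r ∈ G, sumL (ph Pm) (sp r) ≤ sumL (ph Pp) (sp r)) (hR : ∀ r ∈ R, r ∈ G ∨ r ∈ B) :
    ¬ (List.replicate 8 0 ++ L).Perm (R.flatMap sp) := fun hp => by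
  have h0 : ∀ e, e ∈ 0 :: L ↔ ∃ r ∈ R, e ∈ sp r := fun e => by
    rw [← List.mem_flatMap, ← hp.mem_iff]; simp
  have h1 : ∀ r ∈ R, sub (mk (sp r)) (mk (0 :: L)) = true := fun r hr =>
    sub_of fun e he => testBit_mk.2 ((h0 e).2 ⟨r, hr, testBit_mk.1 he⟩)
  rw [hchk, fN_eq, sub_of fun e he => ?_] at h
  · obtain ⟨h2, h3⟩ := Bool.and_eq_true_iff.1 h
    have h4 : ∀ P, 8 * ph P 0 + sumL (ph P) L = (R.map fun r => sumL (ph P) (sp r)).sum := fun P => by
      have := (hp.map (ph P)).sum_eq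
      simp only [sumL_eq]
      rw [List.map_flatMap, List.flatMap_def, List.sum_flatten, List.map_map] at this
      rw [List.map_append, List.sum_append, List.map_replicate, List.sum_replicate_nat] at this
      exact this
    rw [Nat.blt_eq, h4, h4] at h3
    refine h3.not_ge (List.sum_le_sum fun r hr => hg r ((hR r hr).resolve_right fun hb => ?_))
    simpa [h1 r hr] using allL_iff.1 h2 _ (List.mem_map_of_mem hb)
  · obtain ⟨r, hr, h2⟩ := (h0 e).1 (testBit_mk.1 he)
    show (cov _ _ ||| cov _ _).testBit e = true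
    rw [Nat.testBit_or, Bool.or_eq_true]
    exact (hR r hr).imp (fun h => testBit_cov (List.mem_map_of_mem h) (h1 r hr) (testBit_mk.2 h2))
      fun h => testBit_cov (List.mem_map_of_mem h) (h1 r hr) (testBit_mk.2 h2)

theorem lu_iff {n j r : ℕ} (hr : r < 3 ^ n) (hj : j < 3 ^ n) :
    lu n j r = true ↔ ¬ 3 ∣ r.choose j := by
  induction n generalizing j r with
  | zero => simp_all [lu]
  | succ n ih =>
    have : Fact (Nat.Prime 3) := ⟨Nat.prime_three⟩
    have h1 : ∀ a < 3, ∀ b < 3, (3 ∣ a.choose b ↔ ¬ b ≤ a) := by decide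
    rw [(Choose.choose_modEq_choose_mod_mul_choose_div_nat (n := r) (k := j) (p := 3)).dvd_iff
      dvd_rfl, Nat.prime_three.dvd_mul, not_or, ← ih (r := r / 3) (j := j / 3) (by omega) (by omega),
      h1 (r % 3) (by omega) (j % 3) (by omega), not_not, ← Nat.ble_eq]
    show (Bool.rec false (lu n (j / 3) (r / 3)) (Nat.ble (j % 3) (r % 3)) : Bool) = true ↔ _
    cases Nat.ble (j % 3) (r % 3) <;> simp

theorem testBit_dig {q R n e : ℕ} : ∀ {r j p : ℕ}, (dig q R n r j p).testBit e = true ↔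
    ∃ i < 3 ^ n, lu n i r = true ∧ (R - (j + i * p) + q * (j + i * p)) % (q + 1) = e := by
  induction n with
  | zero =>
    intro r j p
    show (1 <<< ((R - j + q * j) % (q + 1))).testBit e = true ↔ _
    simp [Nat.one_shiftLeft, Nat.testBit_two_pow, lu]
  | succ n ih =>
    intro r j p
    have h1 : ∀ (F : ℕ → ℕ) (m : ℕ), (Nat.rec 0 (fun d acc => Nat.lor acc (F d)) m : ℕ).testBit e =
        true ↔ ∃ d < m, (F d).testBit e = true := fun F m => by
      induction m with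
      | zero => simp
      | succ m ih =>
        show (_ ||| F m).testBit e = true ↔ _
        rw [Nat.testBit_or, Bool.or_eq_true, ih, Nat.exists_lt_succ_right]
    have h2 : ∀ i, lu (n + 1) i r = true ↔ i % 3 ≤ r % 3 ∧ lu n (i / 3) (r / 3) = true := fun i => by
      rw [← Nat.ble_eq]
      show (Bool.rec false (lu n (i / 3) (r / 3)) (Nat.ble (i % 3) (r % 3)) : Bool) = true ↔ _
      cases Nat.ble (i % 3) (r % 3) <;> simp
    have h3 : dig q R (n + 1) r j p = Nat.rec 0 (fun d acc => Nat.lor acc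
        (dig q R n (r / 3) (j + d * p) (3 * p))) (r % 3 + 1) := by
      simp only [dig, fN_eq]; rfl
    rw [h3]
    refine (h1 (fun d => dig q R n (r / 3) (j + d * p) (3 * p)) (r % 3 + 1)).trans ?_
    simp only [ih, h2]
    constructor
    · rintro ⟨d, hd, i, hi, h4, h5⟩
      refine ⟨d + 3 * i, by omega, ⟨by omega, ?_⟩, ?_⟩
      · rwa [show (d + 3 * i) / 3 = i by omega]
      · rwa [show j + (d + 3 * i) * p = j + d * p + i * (3 * p) by ring]
    · rintro ⟨i, hi, ⟨h4, h5⟩, h6⟩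
      refine ⟨i % 3, by omega, i / 3, by omega, h5, ?_⟩
      rwa [show j + i % 3 * p + i / 3 * (3 * p) = j + (i % 3 + 3 * (i / 3)) * p by ring,
        Nat.mod_add_div]

theorem dig_eq {n r : ℕ} (hr : r < 3 ^ n) : dig (3 ^ n) r n r 0 1 = mk (spec n r) :=
  Nat.eq_of_testBit_eq fun e => Bool.eq_iff_iff.2 (by
    simp only [testBit_dig, testBit_mk, spec, List.mem_map, List.mem_filter, List.mem_range,
      zero_add, mul_one]
    refine exists_congr fun i => ⟨fun h => ⟨⟨?_, h.2.1⟩, h.2.2⟩, fun h => ⟨by omega, h.1.2, h.2⟩⟩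
    by_contra h1
    exact (lu_iff hr h.1).1 h.2.1 (by rw [Nat.choose_eq_zero_of_lt (by omega)]; exact dvd_zero 3))

theorem wordF_eq {β : Type} (s : ℕ) (l a : List ℕ) (k : List ℕ → β) :
    wordF s l a k = k (l.foldl (stp s) a) := by
  induction l generalizing a with
  | nil => rfl
  | cons i l ih =>
    rw [List.foldl_cons, ← ih]
    exact (fN_eq (a.getD i 0) fun x => zipF (fun y c => (y + c * x) % s) (nA.getD i []) a
      fun b => wordF s l b k).trans (zipF_eq _ _ _ _)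

variable (C : Cert chevE8)

theorem word_spec (l : List ℕ) (hl : ∀ i ∈ l, i < 8) : ∃ w ∈ C.S.W, ∀ {s : ℕ}, s ∣ 44530 →
    ∀ {a f}, a.length = 8 → IsAdd C.R f → Rp C s a f → Rp C s (l.foldl (stp s) a) fun r => f (w r) := by
  induction l with
  | nil => exact ⟨1, one_mem _, fun _ _ _ _ _ h => h⟩
  | cons i l ih =>
    obtain ⟨w, hw, h1⟩ := ih fun j hj => hl j (by simp [hj])
    have hi : i < chevE8.rank := hl i (by simp)
    have h2 := C.R.τ_mem_W (C.R.simple ⟨i, hi⟩)
    refine ⟨_, mul_mem h2 hw, fun {s} hs a f ha hf h => h1 hs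
      (by rw [stp, List.length_zipWith, ha, (nA_ok i hi).1]; rfl)
      (hf.comp h2) fun j => ?_⟩
    have h3 : (((nA.getD i []).getD j 0 : ℕ) : ZMod s) = -chevE8.cartan i (chevE8.simple j) := by
      rw [eq_neg_iff_add_eq_zero, ← Int.cast_natCast, ← Int.cast_add,
        ZMod.intCast_zmod_eq_zero_iff_dvd]
      exact (Int.natCast_dvd_natCast.2 hs).trans (Int.dvd_of_emod_eq_zero ((nA_ok i hi).2 j j.2))
    have hj : (j : ℕ) < 8 := j.2
    rw [stp, List.getD_eq_getElem _ _ (by rwa [List.length_zipWith, ha, (nA_ok i hi).1]),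
      List.getElem_zipWith, ← List.getD_eq_getElem _ 0, ← List.getD_eq_getElem _ 0]
    simp only [hf.τ, RS.pair_simple_simple, C.A_eq]
    push_cast
    rw [ZMod.natCast_mod]
    push_cast
    rw [h3, h j, h ⟨i, hi⟩]
    ring

theorem dotN_take (p a : List ℕ) : dotN p (a.take p.length) = dotN p a := by
  induction p generalizing a with
  | nil => rfl
  | cons x p ih =>
    cases a with
    | nil => rfl
    | cons y a => exact congrArg (x * y + ·) (ih a)

variable {C} {f : Fin chevE8.nroots → ℤ} {w : Perm (Fin chevE8.nroots)} {s l : ℕ}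

theorem rp_lin {v v' : List ℕ} (hv : v.length = 8) (hv' : v'.length = 8) (x y : ℕ) :
    Rp C s (lin s x y v v') fun r => x * vN C v r + y * vN C v' r := fun j => by
  have hj : (j : ℕ) < 8 := j.2
  rw [lin, List.getD_eq_getElem _ _ (by rwa [List.length_zipWith, hv, hv']), List.getElem_zipWith,
    ← List.getD_eq_getElem _ 0, ← List.getD_eq_getElem _ 0]
  simp [vN_simple]

theorem tab_spec [Fact s.Prime] (hs : s ∣ 44530) {v v' : List ℕ} (hv : v.length = 8)
    (hv' : v'.length = 8) {D : List Dat} {T : List (List ℕ × ℕ × ℕ)} (h : tabB s v v' D T = true)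
    (hf : IsAdd C.R f) {a b : ZMod s} (h1 : ∀ r, (f r : ZMod s) = a * vN C v r + b * vN C v' r) :
    ∃ u ∈ C.S.W, ∃ d ∈ D, ∃ c : ZMod s, ∀ r, (f (u r) : ZMod s) = c * vN C d.1 r := by
  have key : ∀ t x y : ℕ, t < s + 1 → (if t = s then lin s 0 1 v v' else lin s 1 t v v') =
      lin s x y v v' → ∀ c : ZMod s, a = c * x → b = c * y →
      ∃ u ∈ C.S.W, ∃ d ∈ D, ∃ c : ZMod s, ∀ r, (f (u r) : ZMod s) = c * vN C d.1 r := by
    intro t x y ht e c ha hb
    have h2 := allN_iff.1 h t ht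
    simp only [wordF_eq, e, decide_eq_true_eq] at h2
    obtain ⟨h3, -, h4, h5⟩ := h2
    obtain ⟨u, hu, h6⟩ := word_spec C _ h3
    have h7 := ((isAdd_vN C v).mul x).add ((isAdd_vN C v').mul y)
    have h8 := h6 hs (by simp [lin, hv, hv']) h7 (rp_lin hv hv' x y)
    rw [h5, List.getD_eq_getElem _ _ h4] at h8
    refine ⟨u, hu, _, List.getElem_mem h4, c * (T.getD t ([], 0, 0)).2.1, fun r => ?_⟩
    have h9 := h8.vN_eq (h7.comp hu) r
    rw [h1, ha, hb, mul_assoc, mul_assoc, ← mul_add, mul_assoc]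
    push_cast at h9
    rw [← h9]
    simp only [vN, Int.cast_sum, Int.cast_mul, Int.cast_natCast, mul_sum]
    refine sum_congr rfl fun j _ => ?_
    simp only [List.getD_eq_getElem?_getD, List.getElem?_map]
    cases (D[(T[t]?.getD ([], 0, 0)).2.2].1)[(j : ℕ)]? <;> simp [mul_left_comm]
  by_cases ha : a = 0
  · exact key s 0 1 (by omega) (if_pos rfl) b (by simp [ha]) (by simp)
  · have := ZMod.val_lt (b / a)
    exact key (b / a).val 1 _ (by omega) (if_neg this.ne) a (by simp) (by simp; field_simp)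

/-- The list is not a union of spectra. -/
def Bad (n : ℕ) (L : List ℕ) : Prop :=
  ∀ R : List ℕ, (∀ r ∈ R, r < 3 ^ n) → ¬ (List.replicate 8 0 ++ L).Perm (R.flatMap (spec n))

theorem jointB_eq (N : List RN) (a y : List ℕ) :
    jointB N s 3 a l 3 y = rat s l (N.map (prs s l a y)) := mapF_eq (prs s l a y) N (rat s l)

theorem zip_prs (N : List RN) (a y : List ℕ) : List.zipWith (fun u (x : RN) => Nat.add u (Nat.mul s
    (Nat.mod (dotN y x.2.2) l))) (N.map fun x => (dotN a x.2.2).mod s) N = N.map (prs s l a y) := by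
  rw [List.zipWith_map_left, List.zipWith_self]; rfl

theorem ychk_spec {A B μ : ℕ} {R a y : List ℕ} {H : List ℕ → Bool} (hs : s ∣ 44530)
    (hl : l ∣ 44530) (hc : s.Coprime l) (hA : A % s = 1 ∧ A % l = 0 ∧ B % s = 0 ∧ B % l = 1)
    (h : ychk s l A B R H (tn.map fun x => (dotN a x.2.2).mod s) y = true) (hμ : μ ∈ R) (hf : IsAdd C.R f) (hy : Rp C l y f)
    (h1 : ∀ r, (vN C a (w r) : ZMod s) = (3 : ℕ) * vN C a r)
    (h2 : ∀ r, (f (w r) : ZMod l) = (3 : ℕ) * f r) (h3 : ∀ r, (f r : ZMod s) = μ * vN C a r)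
    (h4 : ¬ ∀ r, (f r : ZMod l) = 0) : ∃ e : Fin chevE8.nroots → ℕ,
      (∀ r, e r < s * l ∧ (e r : ZMod (s * l)) = f r) ∧ H (List.ofFn fun r => 2 * e r) = true := by
  have hs0 := Nat.pos_of_dvd_of_pos hs (by decide)
  have hl0 := Nat.pos_of_dvd_of_pos hl (by decide)
  have h5 : allL (Nat.beq · 0) y = false := Bool.eq_false_iff.2 fun h5 => h4 (hf.eq_zero fun j => by
    rw [← hy j, List.getD_eq_getElem?_getD]
    rcases h6 : y[(j : ℕ)]? with _ | x
    · simp
    · simp [Nat.eq_of_beq_eq_true (allL_iff.1 h5 x (List.mem_of_getElem? h6))])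
  have h7 := jointB_of tabOKE8 tabN hs (rp_vN C s a) (isAdd_vN C a) h1 hl hy hf h2
  have h6 : mapF (ex s l A B μ) (tn.map (prs s l a y)) H = true := by
    rw [ychk, h5] at h
    generalize tn = N at h h7 ⊢
    simp only [zipF_eq, zip_prs, ← jointB_eq, h7] at h
    exact allL_iff.1 h μ hμ
  rw [mapF_eq, List.map_map, tabN_map tabOKE8 tabN] at h6
  refine ⟨_, fun r => ⟨Nat.mod_lt _ (Nat.mul_pos hs0 hl0), ?_⟩, h6⟩
  have e1 := (rp_vN C s a).dotN_rn tabOKE8 tabN hs (isAdd_vN C a) r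
  have e2 := hy.dotN_rn tabOKE8 tabN hl hf r
  simp only [prs]
  generalize dotN a _ = x at e1 ⊢
  generalize dotN y _ = z at e2 ⊢
  show (((A * μ * ((x % s + s * (z % l)) % s) + B * ((x % s + s * (z % l)) / s)) % (s * l) : ℕ) :
    ZMod (s * l)) = _
  rw [ZMod.natCast_mod, ← Int.cast_natCast, ZMod.intCast_eq_intCast_iff, Nat.cast_mul,
    ← Int.modEq_and_modEq_iff_modEq_mul (by simpa using hc), ← ZMod.intCast_eq_intCast_iff,
    ← ZMod.intCast_eq_intCast_iff, Nat.add_mul_div_left _ _ hs0, Nat.mod_div_self, zero_add,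
    Nat.add_mul_mod_self_left, Nat.mod_mod]
  have c1 : (A : ZMod s) = 1 := by rw [← ZMod.natCast_mod, hA.1, Nat.cast_one]
  have c2 : (A : ZMod l) = 0 := by rw [← ZMod.natCast_mod, hA.2.1, Nat.cast_zero]
  have c3 : (B : ZMod s) = 0 := by rw [← ZMod.natCast_mod, hA.2.2.1, Nat.cast_zero]
  have c4 : (B : ZMod l) = 1 := by rw [← ZMod.natCast_mod, hA.2.2.2, Nat.cast_one]
  simp [c1, c2, c3, c4, e1, e2, h3]

theorem core [Fact s.Prime] {n A B Pp Pm : ℕ} {R G : List ℕ} {D : List Dat} (hs : s ∣ 44530)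
    (hl : l ∣ 44530) (hc : s.Coprime l) (hA : A % s = 1 ∧ A % l = 0 ∧ B % s = 0 ∧ B % l = 1)
    (hR : ∀ c < s, c ≠ 0 → ∃ k < 12, 3 ^ k * c % s ∈ R) (hD : DatOK l D) (hS : srchB s l D = true)
    (hF : ∀ i < l, full n s l A B R G Pp Pm D i = true) (hG : good n G Pp Pm = true)
    (hG' : ∀ r ∈ G, r < 3 ^ n) (hf : IsAdd C.R f)
    (hw : w ∈ C.S.W) (h1 : ∀ r, (f (w r) : ZMod s) = (3 : ℕ) * f r)
    (h2 : ∀ r, (f (w r) : ZMod l) = (3 : ℕ) * f r) (h3 : ¬ ∀ r, (f r : ZMod s) = 0)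
    (h4 : ¬ ∀ r, (f r : ZMod l) = 0) {u : Perm (Fin chevE8.nroots)} (hu : u ∈ C.S.W) {d : Dat}
    (hd : d ∈ D) {c : ZMod s} (h5 : ∀ r, (f (u r) : ZMod s) = c * vN C d.1 r) :
    ∃ (v : Perm (Fin chevE8.nroots)) (e : Fin chevE8.nroots → ℕ),
      (∀ r, e r < s * l ∧ (e r : ZMod (s * l)) = f (v r)) ∧ Bad n (List.ofFn fun r => 2 * e r) := by
  have hl0 := Nat.pos_of_dvd_of_pos hl (by decide)
  have hc0 : c ≠ 0 := fun e => h3 fun r => by simpa [e] using h5 (u⁻¹ r)
  obtain ⟨k, -, hk⟩ := hR c.val (ZMod.val_lt c) (by simpa using hc0)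
  set μ := 3 ^ k * c.val % s with hμ
  have h30 : ((3 : ℕ) : ZMod s) ≠ 0 := fun e => h3 fun r => by
    simpa using (h1 (w⁻¹ r)).trans (by rw [e, zero_mul])
  have hμ' : (μ : ZMod s) = ((3 : ℕ) : ZMod s) ^ k * c := by simp [hμ]
  have hv := mul_mem (pow_mem hw k) hu
  set v := w ^ k * u
  have hw' := mul_mem (mul_mem (inv_mem hv) hw) hv
  have hf' := hf.comp hv
  have h6 : ∀ r, (f (v r) : ZMod s) = μ * vN C d.1 r := fun r => by
    rw [Perm.mul_apply, rel_pow h1, h5, hμ', mul_assoc]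
  have h7 : ∀ r, (vN C d.1 ((v⁻¹ * w * v) r) : ZMod s) = (3 : ℕ) * vN C d.1 r := fun r => by
    refine mul_left_cancel₀ (hμ' ▸ mul_ne_zero (pow_ne_zero k h30) hc0) ?_
    rw [← h6, mul_left_comm, ← h6]
    simp [h1]
  have h8 : ∀ r, (f (v ((v⁻¹ * w * v) r)) : ZMod l) = (3 : ℕ) * f (v r) := fun r => by simp [h2]
  obtain ⟨d1, d2, d3, d4, d5, d6⟩ := hD d hd
  have h9 := srch_spec tabOKE8 tabN hs hw' d1 (rp_vN C s _) (isAdd_vN C _) h7 (allL_iff.1 hS d hd)
  rw [hornA_eq, allL_iff] at h9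
  let a := List.ofFn fun j : Fin chevE8.rank => (f (v (C.R.simple j)) % l).toNat
  have ha : ∀ x ∈ a.take 4, x < l := fun x hx => by
    obtain ⟨j, rfl⟩ := List.mem_ofFn.1 (List.mem_of_mem_take hx)
    have := Int.emod_lt_of_pos (f (v (C.R.simple j))) (show (0 : ℤ) < l by omega)
    omega
  obtain ⟨i, t, ht, ht'⟩ : ∃ i t, a.take 4 = i :: t ∧ t.length = 3 := by
    have : (a.take 4).length = 4 := by simp [a]; decide
    rcases h : a.take 4 with _ | ⟨i, t⟩ <;> simp_all
  have hF' := hF i (ha i (by simp [ht]))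
  simp only [full, mapF_eq, fN_eq] at hF'
  have h10 := allCube_spec (allL_iff.1 hF' d hd) ht' fun x hx => ha x (by simp [ht, hx])
  rw [← ht, List.map_congr_left fun r hr => dig_eq (hG' r hr), List.map_congr_left fun r hr =>
    dig_eq (List.mem_range.1 (List.mem_filter.1 hr).1)] at h10
  have hy : Rp C l (d.2.1.map fun p => (dotN p (a.take 4)).mod l) fun r => f (v r) := fun j => by
    have hj : (j : ℕ) < d.2.1.length := d2 ▸ j.2
    have h11 := (kil_all_iff tabOKE8 tabN hl hw' _ (d4 _ (d6 j j.2).1)).1 (h9 _ (d6 j j.2).1) _ hf'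
    rw [ev_eig h8, ← ZMod.natCast_mod, d5, Nat.cast_one, one_mul] at h11
    rw [List.getD_eq_getElem _ _ (by simpa using hj), List.getElem_map]
    refine (ZMod.natCast_mod _ l).trans ?_
    rw [← d3 _ (List.getElem_mem hj), dotN_take, dotN_ofFn, ← List.getD_eq_getElem _ []]
    refine (zero_add _).symm.trans ?_
    rw [← h11]
    have h12 : ∀ i : Fin chevE8.rank, (((d.2.2.1.getD j []).getD i 0 : ℕ) : ZMod l) +
        ((d.2.1.getD j []).getD i 0 : ℕ) = if i = j then 1 else 0 := fun i => by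
      rw [← Nat.cast_add, ← ZMod.natCast_mod, (d6 j j.2).2 i i.2]
      simp [Fin.ext_iff]
    simp only [H29.ev, Int.cast_sum, Int.cast_mul, Int.cast_natCast, Nat.cast_sum, Nat.cast_mul,
      cast_res hl0 dvd_rfl, ← sum_add_distrib, ← add_mul, h12]
    simp
  obtain ⟨e, h11, h12⟩ := ychk_spec hs hl hc hA h10 hk hf' hy h7 h8 h6
    fun h => h4 fun r => by simpa using h (v⁻¹ r)
  refine ⟨v, e, h11, fun R hR => hchk_spec h12 (fun r hr => ?_) fun r hr => ?_⟩
  · exact Nat.le_of_ble_eq_true (allL_iff.1 hG r hr)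
  · simp [hR r hr, em]

end Cfsg.Agent.H50.E8L
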