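import Mathlib
import Cfsg.Agent.H50.E8Sp
import Cfsg.Agent.H50.E8Chka
import Cfsg.Agent.H50.E8Chkb
import Cfsg.Agent.H50.E8Chkc
import Cfsg.Agent.H50.SL2C
import Cfsg.Agent.H29.ASE8a
import Cfsg.Agent.H34.SSC
import Cfsg.Agent.S1065

/-! Subgroups `L₂(3 ^ n)` of `E₈(3)`. -/

set_option autoImplicit false

namespace Cfsg.Agent.H50.E8L

open Equiv Cfsg.Lie H37 H40 H34 H29 Finset Polynomial
open scoped MatrixGroups

section
variable {k : Type*} [Field k] [IsAlgClosed k] (ι : ZMod 3 →+* k) {C : Cert chevE8}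
  {w : Perm (Fin chevE8.nroots)} {ζ : kˣ} {s : ℕ}

theorem lang_lab (hw : w ∈ C.S.W) (hζ : IsPrimitiveRoot ζ s) : ∃ y : chevE8.group k, ∀ {h f},
    Lab C ζ h f → (∀ r, (f (w r) : ZMod s) = (3 : ℕ) * f r) →
      ∃ g, C.V.fieldHom ι g = y * h * y⁻¹ := by
  have hq : Fintype.card (ZMod 3) = 3 := ZMod.card 3
  obtain ⟨-, φ, hφ⟩ := exists_frob_ext ι (q := 3) (m := 1) Nat.prime_three.isPrimePow hq
  have hι : ∀ x, φ x = x ↔ ∃ y, ι y = x := fun x => by rw [hφ, ← mem_range_of_pow_card, hq]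
  obtain ⟨n, hn, e1⟩ := (C.split k).exists_lift hw
  obtain ⟨x, hx⟩ := C.lang_field (by decide) hφ n
  refine ⟨x, ?_⟩
  rintro _ f ⟨-, c, rfl, h2⟩ h1
  have key := (fix_conj_iff _ hx (C.tg k c)).trans (((C.fieldTw φ).conj hn).fix_tg_iff
    (A := C.mat ⟨w, hw⟩) (by rw [mul_one, e1]; exact C.rep_mat ⟨w, hw⟩) hφ)
  have := C.pow_mem_range hι (by decide) hφ (C.pow_eq_one_of_inv invE8) (key.2
    (Cert.tg_eq_iff'.2 fun r => by
      rw [(C.rep_mat ⟨w, hw⟩).torChar_pull, torChar_eq_evw (c ^ 3), evw_pow, ← torChar_eq_evw, h2, h2,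
        ← zpow_natCast, ← zpow_mul, zpow_eq_iff hζ, h1]
      simp [mul_comm]))
  rwa [Nat.gcd_one_left, pow_one] at this

theorem syl [hs : Fact s.Prime] (h3 : ¬ s ^ 3 ∣ Nat.card (chevE8.group (ZMod 3))) (hw : w ∈ C.S.W)
    (hζ : IsPrimitiveRoot ζ s) {v v' : List ℕ}
    (hv : ∀ r, (vN C v (w r) : ZMod s) = (3 : ℕ) * vN C v r)
    (hv' : ∀ r, (vN C v' (w r) : ZMod s) = (3 : ℕ) * vN C v' r)
    (hi : v.getD 6 0 = 1 ∧ v.getD 7 0 = 0 ∧ v'.getD 6 0 = 0 ∧ v'.getD 7 0 = 1)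
    {x : chevE8.group (ZMod 3)} (hx : x ^ s = 1) {h f} (hl : Lab C ζ h f)
    (hc : IsConj h (C.V.fieldHom ι x)) :
    ∃ u ∈ C.S.W, ∃ a b : ZMod s, ∀ r, (f (u r) : ZMod s) = a * vN C v r + b * vN C v' r := by
  obtain ⟨y, hy⟩ := lang_lab ι hw hζ
  set j := C.V.fieldHom ι
  have h0 : ∀ g (m : ℕ), (y⁻¹ * j g * y) ^ m = y⁻¹ * j (g ^ m) * y := fun g m => by
    simpa using conj_pow (a := y⁻¹) (b := j g) (i := m)
  have h1 : ∀ {g f}, Lab C ζ (y⁻¹ * j g * y) f → g ^ s = 1 := fun {g f} h =>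
    C.V.fieldHom_injective ι (by
      have := h.pow_eq_one hζ
      rwa [h0, mul_assoc, inv_mul_eq_one, eq_comm, mul_eq_right, ← map_one j] at this)
  let P : Subgroup (chevE8.group (ZMod 3)) :=
    { carrier := {g | ∃ f, Lab C ζ (y⁻¹ * j g * y) f ∧
        ∃ a b : ZMod s, ∀ r, (f r : ZMod s) = a * vN C v r + b * vN C v' r}
      mul_mem' := by
        rintro g g' ⟨f, h2, a, b, h4⟩ ⟨f', h2', a', b', h4'⟩
        refine ⟨_, by simpa [mul_assoc] using h2.mul h2', a + a', b + b', fun r => ?_⟩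
        simp only [Int.cast_add, h4, h4']; ring
      one_mem' := ⟨_, by simpa using lab_one, 0, 0, fun r => by simp⟩
      inv_mem' := by
        rintro g ⟨f, h2, a, b, h4⟩
        have h5 := h2.pow (s - 1)
        have h6 : g ^ (s - 1) = g⁻¹ := eq_inv_of_mul_eq_one_left
          (by rw [← pow_succ, Nat.sub_add_cancel hs.out.pos, h1 h2])
        rw [h0, h6] at h5
        refine ⟨_, h5, (s - 1 : ℕ) * a, (s - 1 : ℕ) * b, fun r => ?_⟩
        simp only [Int.cast_mul, Int.cast_natCast, h4]; ring }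
  have hP : IsPGroup s P := fun g => ⟨1, Subtype.ext (by
    obtain ⟨f, h2, -⟩ := g.2
    simpa using h1 h2)⟩
  have h2 : ∀ z : ZMod s × ZMod s, ∃ g, Lab C ζ (y⁻¹ * j g * y)
      fun r => z.1.val * vN C v r + z.2.val * vN C v' r := fun z => by
    obtain ⟨h, hh⟩ := exists_lab8 hζ (((isAdd_vN C v).mul z.1.val).add ((isAdd_vN C v').mul z.2.val))
    obtain ⟨g, hg⟩ := hy hh fun r => by simp only [Int.cast_add, Int.cast_mul, hv, hv']; ring
    exact ⟨g, by simpa [hg, mul_assoc] using hh⟩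
  choose g hg using h2
  have h4 := Nat.card_le_card_of_injective (fun z => (⟨g z, _, hg z, z.1, z.2, fun r => by simp⟩ : P))
    fun z z' e => by
      have h5 := ((hg z).eq_iff (hg z')).1 (by rw [show g z = g z' from congrArg Subtype.val e])
      have h6 := (zpow_eq_iff hζ).1 (h5 (C.R.simple ⟨6, by decide⟩))
      have h7 := (zpow_eq_iff hζ).1 (h5 (C.R.simple ⟨7, by decide⟩))
      simp only [vN_simple, hi] at h6 h7
      exact Prod.ext (by simpa using h6) (by simpa using h7)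
  obtain ⟨m, hm⟩ := hP.exists_card_eq
  rw [hm, Nat.card_prod, Nat.card_zmod, ← sq, Nat.pow_le_pow_iff_right hs.out.one_lt] at h4
  obtain ⟨z, hz⟩ := exists_conj_le (r := s) (M := P) (Q := Subgroup.zpowers x) (fun hd => h3 (by
    rw [← P.card_mul_index, hm, pow_succ]
    exact mul_dvd_mul (pow_dvd_pow s h4) hd)) (by
      rintro ⟨_, i, rfl⟩
      exact ⟨1, Subtype.ext (by
        show (x ^ i) ^ s ^ 1 = 1
        rw [pow_one, ← zpow_natCast, zpow_comm, zpow_natCast, hx, one_zpow])⟩)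
  obtain ⟨f', h5, a, b, h6⟩ := hz x (Subgroup.mem_zpowers x)
  obtain ⟨t, ht⟩ := isConj_iff.1 hc
  obtain ⟨u, hu, h7⟩ := exists_act C (y⁻¹ * j z * t)
  exact ⟨u, hu, a, b, fun r => (h7 hζ hl (by simpa [← ht, mul_assoc] using h5) r).trans (h6 r)⟩

omit [IsAlgClosed k] in
theorem lab_pow {h : chevE8.group k} {f : Fin chevE8.nroots → ℤ} (hl : Lab C ζ h f) (m : ℕ) :
    Lab C (ζ ^ m) (h ^ m) f := by
  obtain ⟨-, c, h1, h2⟩ := hl.pow m
  exact ⟨hl.1, c, h1, fun r => by rw [h2, zpow_mul, zpow_natCast]⟩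

omit [IsAlgClosed k] in
theorem perm_of_prod {θ : k} {N : ℕ} (hθ : IsPrimitiveRoot θ N) {L L' : List ℕ}
    (h : ∀ e ∈ L, e < N) (h' : ∀ e ∈ L', e < N)
    (e : (L.map fun e => X - Polynomial.C (θ ^ e)).prod =
      (L'.map fun e => X - Polynomial.C (θ ^ e)).prod) : L.Perm L' := by
  classical
  have h1 : ∀ L : List ℕ, (L.map fun e => X - Polynomial.C (θ ^ e)).prod.roots =
      (L : Multiset ℕ).map (θ ^ ·) := fun L => by
    rw [← roots_multiset_prod_X_sub_C (Multiset.map _ _), Multiset.map_map, Multiset.map_coe,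
      Multiset.prod_coe]
    rfl
  have h2 : ∀ L : List ℕ, (∀ e ∈ L, e < N) → ((L : Multiset ℕ).map (θ ^ ·)).map
      (Function.invFunOn (θ ^ ·) (Set.Iio N)) = L := fun L h => by
    rw [Multiset.map_map]
    exact (Multiset.map_congr rfl fun e he => Set.InjOn.leftInvOn_invFunOn
      (fun a ha b hb => hθ.pow_inj ha hb) (h e he)).trans (Multiset.map_id _)
  rw [← Multiset.coe_eq_coe, ← h2 L h, ← h2 L' h', ← h1, ← h1, e]

omit [IsAlgClosed k] in
theorem PP_eq {θ : k} {n r : ℕ} (hθ : θ ^ (3 ^ n + 1) = 1) (hr : r < 3 ^ n) :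
    SL2S.PP 3 θ (θ ^ 3 ^ n) r = ((spec n r).map fun e => X - Polynomial.C (θ ^ e)).prod := by
  rw [SL2S.PP, show SL2S.JJ 3 r = ((List.range (r + 1)).filter (lu n · r)).toFinset from by
    ext j
    simp only [SL2S.JJ, mem_filter, mem_range, List.mem_toFinset, List.mem_filter, List.mem_range]
    exact and_congr_right fun hj => (lu_iff hr (by omega)).symm,
    List.prod_toFinset _ (List.nodup_range.filter _), spec, List.map_map]
  congr 2
  funext j
  rw [Function.comp_apply, ← pow_eq_pow_mod _ hθ, pow_add, pow_mul]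

end

theorem pow_sl2 {F k : Type*} [Field F] [Field k] (κ : F →+* k) {θ η : k} {τ : F} (h1 : θ * η = 1)
    (h2 : θ + η = κ τ) (h3 : θ ≠ η) {g : SL(2, F)} (hg : g.1 = !![0, -1; 1, τ]) (m : ℕ) :
    g ^ m ∈ Subgroup.center SL(2, F) ↔ θ ^ m = η ^ m := by
  have h4 : ∀ i j, (θ - η) * κ ((g ^ m) i j) = (θ ^ m - η ^ m) * κ (g i j) +
      (θ * η ^ m - η * θ ^ m) * κ ((1 : SL(2, F)) i j) := by
    induction m with
    | zero => simp
    | succ m ih =>
      intro i j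
      have a := ih i 0
      have b := ih i 1
      rw [pow_succ, Matrix.SpecialLinearGroup.coe_mul, Matrix.mul_apply, Fin.sum_univ_two]
      fin_cases i <;> fin_cases j <;> simp [hg, ← h2] at a b ⊢
      · linear_combination b + (θ ^ m - η ^ m) * h1
      · linear_combination -a + (θ + η) * b
      · linear_combination b
      · linear_combination -a + (θ + η) * b + (θ ^ m - η ^ m) * h1
  have a := h4 0 0
  have b := h4 0 1
  have c := h4 1 0
  have d := h4 1 1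
  rw [Matrix.SpecialLinearGroup.mem_center_iff]
  clear h4
  generalize g ^ m = G at *
  constructor
  · rintro ⟨r, -, hr⟩
    rw [← hr] at c
    simpa [hg, sub_eq_zero, eq_comm] using c
  · intro h
    have h5 := sub_ne_zero.2 h3
    simp [hg, h, h5] at a b c d
    have e : G 1 1 = G 0 0 := κ.injective (mul_left_cancel₀ h5 (d.trans a.symm))
    have e' := G.det_coe
    rw [Matrix.det_fin_two] at e'
    refine ⟨G 0 0, ?_, ?_⟩
    · simpa [b, c, e, sq] using e'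
    · ext i j
      fin_cases i <;> fin_cases j <;> simp [b, c, e]

theorem charpoly_conj {D : ChevalleyDatum} (C : Cert D) {k : Type*} [Field k]
    {c : Fin D.rank → kˣ} {x : D.group k} (h : IsConj (C.tg k c) x) :
    ((x : GL D.Idx k) : Matrix D.Idx D.Idx k).charpoly = (X - 1) ^ D.rank *
      ∏ r : Fin D.nroots, (X - Polynomial.C (torChar D c r : k)) := by
  obtain ⟨y, rfl⟩ := isConj_iff.1 h
  have := Matrix.charpoly_units_conj (y : GL D.Idx k) (D.charDiag k (torChar D c))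
  rw [← Matrix.coe_units_inv] at this
  refine this.trans ?_
  rw [ChevalleyDatum.charDiag, Matrix.charpoly_diagonal, Fintype.prod_sum_type]
  simp

theorem charpoly_rep {F k I : Type*} [Field F] [Fintype F] [Field k] [Infinite k] [CharP k 3]
    [Fintype I] [DecidableEq I] (κ : F →+* k) {g : SL(2, F)} {θ η : k} (h1 : θ * η = 1)
    (h2 : θ + η = κ (g 0 0 + g 1 1)) (h3 : ∀ a, κ a ≠ θ) (ψ : SL(2, F) →* GL I k) :
    ∃ R : List ℕ, (∀ r ∈ R, r < Fintype.card F) ∧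
      (ψ g : Matrix I I k).charpoly = (R.map (SL2S.PP 3 θ η)).prod := by
  have : Fact (Nat.Prime 3) := ⟨Nat.prime_three⟩
  rw [← Matrix.charpoly_toLin']
  exact SL2S.charpoly_eq κ 3 h1 h2 h3 _ ((Matrix.toLinAlgEquiv' (R := k)
    (n := I)).toMulEquiv.toMonoidHom.comp ((Units.coeHom _).comp ψ)) rfl

theorem no_L2 {F : Type*} [Field F] [Fintype F] {n s l : ℕ} (hq : Fintype.card F = 3 ^ n)
    (hM : 3 ^ n + 1 = 2 * (s * l)) [hs : Fact s.Prime] (h1s : 1 < s) (h1l : 1 < l)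
    (h3 : ¬ s ^ 3 ∣ Nat.card (chevE8.group (ZMod 3))) {A B Pp Pm : ℕ} {R G : List ℕ} {D : List Dat}
    (hs' : s ∣ 44530) (hl : l ∣ 44530) (hc : s.Coprime l)
    (hA : A % s = 1 ∧ A % l = 0 ∧ B % s = 0 ∧ B % l = 1)
    (hR : ∀ c < s, c ≠ 0 → ∃ k < 12, 3 ^ k * c % s ∈ R) (hD : DatOK l D) (hS : srchB s l D = true)
    (hF : ∀ i < l, full n s l A B R G Pp Pm D i = true) (hG : good n G Pp Pm = true)
    (hG' : ∀ r ∈ G, r < 3 ^ n) {v v' L : List ℕ}
    {T : List (List ℕ × ℕ × ℕ)} (hT : tabB s v v' D T = true)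
    (hv : v.length = 8 ∧ v'.length = 8 ∧ (∀ i ∈ L, i < 8) ∧ L.foldl (stp s) v = lin s 3 0 v v' ∧
      L.foldl (stp s) v' = lin s 0 3 v v')
    (hi : v.getD 6 0 = 1 ∧ v.getD 7 0 = 0 ∧ v'.getD 6 0 = 0 ∧ v'.getD 7 0 = 1)
    (φ : PSL(2, F) →* chevE8.group (ZMod 3)) (hφ : Function.Injective φ) : False := by
  classical
  have h33 : Fact (Nat.Prime 3) := ⟨Nat.prime_three⟩
  have hn : n ≠ 0 := by rintro rfl; nlinarith
  have hF3 : CharP F 3 := by
    obtain ⟨p, hp, m, hp', hm⟩ := FiniteField.card' F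
    obtain rfl : p = 3 := (Nat.prime_dvd_prime_iff_eq hp' Nat.prime_three).1
      (hp'.dvd_of_dvd_pow (hq ▸ hm ▸ dvd_pow_self p m.ne_zero))
    exact hp
  let k := AlgebraicClosure F
  let κ : F →+* k := algebraMap F k
  let ι : ZMod 3 →+* k := ZMod.castHom dvd_rfl k
  let C : Cert chevE8 := cert (by simp)
  obtain ⟨θ, hθ, -⟩ := exists_prim_unit k (N := 3 ^ n + 1) (by
    rw [Nat.cast_add, Nat.cast_pow, CharP.cast_eq_zero k 3, zero_pow hn]; simp)
  have hθ' : IsPrimitiveRoot (θ : k) (3 ^ n + 1) := IsPrimitiveRoot.coe_units_iff.2 hθ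
  have t1 : (θ : k) * θ ^ 3 ^ n = 1 := by rw [← pow_succ', hθ'.pow_eq_one]
  have t2 : ∀ m : ℕ, (θ : k) ^ m = (θ ^ 3 ^ n) ^ m ↔ s * l ∣ m := fun m => by
    rw [← mul_right_inj' (pow_ne_zero m θ.ne_zero), ← mul_pow, ← mul_pow, t1, one_pow, ← sq,
      ← pow_mul, hθ'.pow_eq_one_iff_dvd, hM, Nat.mul_dvd_mul_iff_left two_pos]
  have t3 : (θ : k) ≠ θ ^ 3 ^ n := fun e => by
    have := Nat.le_of_dvd one_pos ((t2 1).1 (by simpa using e))
    nlinarith
  obtain ⟨τ, hτ⟩ := (mem_range_of_pow_card κ (θ + θ ^ 3 ^ n)).1 (by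
    rw [hq, add_pow_char_pow, add_comm]
    congr 1
    refine mul_left_cancel₀ (pow_ne_zero (3 ^ n) θ.ne_zero) ?_
    rw [← mul_pow, t1, one_pow, mul_comm, t1])
  let g : SL(2, F) := ⟨!![0, -1; 1, τ], by simp [Matrix.det_fin_two]⟩
  let ψ : SL(2, F) →* chevE8.group (ZMod 3) := φ.comp (QuotientGroup.mk' _)
  have t4 : ∀ m : ℕ, ψ g ^ m = 1 ↔ s * l ∣ m := fun m => by
    rw [← t2, ← pow_sl2 κ t1 hτ.symm t3 (g := g) rfl, ← map_pow, ← QuotientGroup.eq_one_iff,
      ← map_eq_one_iff φ hφ]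
    rfl
  obtain ⟨w, c, e1, e2⟩ := (C.semisimple_classes invE8 one_ne_zero ι (ZMod.card 3)
    (by decide) 3).2 (ψ g) ((Nat.prime_three.coprime_iff_not_dvd.2 fun h => by
      have := dvd_pow_self 3 hn
      omega : Nat.Coprime 3 (s * l)).symm.coprime_dvd_left
        (orderOf_dvd_of_pow_eq_one ((t4 _).2 dvd_rfl)))
  have t5 : ∀ m : ℕ, C.tg k c ^ m = 1 ↔ s * l ∣ m := fun m => by
    rw [← t4, ← map_eq_one_iff _ (C.V.fieldHom_injective ι), map_pow, ← isConj_one_left,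
      ← isConj_one_left (a := _ ^ m)]
    exact ⟨(e2.pow m).symm.trans, (e2.pow m).trans⟩
  have hζ : IsPrimitiveRoot (θ ^ 2) (s * l) := hθ.pow (by positivity) hM
  have hζs : IsPrimitiveRoot ((θ ^ 2) ^ l) s := hζ.pow (by positivity) (mul_comm _ _)
  have hζl : IsPrimitiveRoot ((θ ^ 2) ^ s) l := hζ.pow (by positivity) rfl
  obtain ⟨f, hf⟩ := exists_lab (C := C) hζ (by positivity) (Cert.tg_mem_H c) ((t5 _).2 dvd_rfl)
  have t6 : ∀ r : Fin chevE8.nroots, torChar chevE8 c r = (θ ^ 2) ^ f r := fun r => by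
    obtain ⟨-, d, h1, h2⟩ := hf
    rw [← h2, Cert.tg_eq_iff'.1 h1]
  have t7 : ∀ m r, ((θ ^ 2) ^ m) ^ f (w.1 r) = ((θ ^ 2) ^ m) ^ ((3 : ℕ) * f r) := fun (m : ℕ) r => by
    have := (C.rep_mat w).torChar_pull c r
    rw [e1, torChar_eq_evw (c ^ 3), evw_pow, ← torChar_eq_evw, t6, t6] at this
    rw [← zpow_natCast _ m, zpow_comm, ← this, zpow_comm, ← zpow_natCast _ 3, ← zpow_mul _ (f r),
      mul_comm]
  obtain ⟨w0, hw0, t8⟩ := word_spec C L hv.2.2.1
  have t9 : ∀ {a x y}, a.length = 8 → L.foldl (stp s) a = lin s x y v v' → ∀ r,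
      (vN C a (w0 r) : ZMod s) = x * vN C v r + y * vN C v' r := fun {a x y} ha e r => by
    rw [← (t8 hs' ha (isAdd_vN C a) (rp_vN C s a)).vN_eq ((isAdd_vN C a).comp hw0), e,
      (rp_lin hv.1 hv.2.1 x y).vN_eq (((isAdd_vN C v).mul x).add ((isAdd_vN C v').mul y))]
    simp
  obtain ⟨u, hu, a, b, h5⟩ := syl ι h3 hw0 hζs (fun r => by simp [t9 hv.1 hv.2.2.2.1])
    (fun r => by simp [t9 hv.2.1 hv.2.2.2.2]) hi (x := ψ g ^ l)
    (by rw [← pow_mul, t4, mul_comm]) (lab_pow hf l) (by rw [map_pow]; exact e2.pow l)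
  obtain ⟨u', hu', d, hd, c', h6⟩ := tab_spec hs' hv.1 hv.2.1 hT (hf.1.comp hu) h5
  obtain ⟨z, e, h7, h8⟩ := core hs' hl hc hA hR hD hS hF hG hG' hf.1 w.2
    (fun r => by simpa using (zpow_eq_iff hζs).1 (t7 l r))
    (fun r => by simpa using (zpow_eq_iff hζl).1 (t7 s r))
    (fun h => by
      have := Nat.le_of_dvd (by omega) ((t5 l).1 (((lab_pow hf l).eq_one_iff hζs).2 h))
      nlinarith)
    (fun h => by
      have := Nat.le_of_dvd (by omega) ((t5 s).1 (((lab_pow hf s).eq_one_iff hζl).2 h))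
      nlinarith) (mul_mem hu hu') hd h6
  obtain ⟨R', h9, h10⟩ := charpoly_rep κ (g := g) t1 (by simp [g, hτ]) (fun a e => t3 (by
    rw [← e, ← map_pow, ← hq, FiniteField.pow_card]))
    ((chevE8.group k).subtype.comp ((C.V.fieldHom ι).comp ψ))
  rw [hq] at h9
  refine h8 R' h9 (perm_of_prod hθ' (fun x hx => ?_) (fun x hx => ?_) ?_)
  · rcases List.mem_append.1 hx with h | h
    · rw [List.eq_of_mem_replicate h]; positivity
    · obtain ⟨r, rfl⟩ := List.mem_ofFn.1 h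
      have := (h7 r).1
      omega
  · obtain ⟨r, -, h⟩ := List.mem_flatMap.1 hx
    obtain ⟨j, -, rfl⟩ := List.mem_map.1 h
    exact Nat.mod_lt _ (by positivity)
  rw [List.map_congr_left fun r hr => PP_eq hθ'.pow_eq_one (h9 r hr)] at h10
  rw [List.map_flatMap, List.flatMap_def, List.prod_flatten, List.map_map]
  refine Eq.trans ?_ ((charpoly_conj C e2).symm.trans h10)
  rw [List.map_append, List.prod_append, List.map_ofFn, List.prod_ofFn,
    ← Equiv.prod_comp z fun r => X - Polynomial.C (torChar chevE8 c r : k)]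
  refine congrArg₂ (· * ·) ?_ ?_
  · rw [List.map_replicate, List.prod_replicate, pow_zero, map_one]; rfl
  · refine prod_congr rfl fun r _ => ?_
    rw [t6, ← (zpow_eq_iff hζ).2 (show (((e r : ℕ) : ℤ) : ZMod (s * l)) = _ from
      (Int.cast_natCast _).trans (h7 r).2)]
    simp [pow_mul]

theorem card_E8 : Nat.card (chevE8.group (ZMod 3)) = 3 ^ 120 * (3 ^ 2 - 1) * (3 ^ 8 - 1) *
    (3 ^ 12 - 1) * (3 ^ 14 - 1) * (3 ^ 18 - 1) * (3 ^ 20 - 1) * (3 ^ 24 - 1) * (3 ^ 30 - 1) :=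
  haveI : Fact (Nat.Prime 3) := ⟨Nat.prime_three⟩
  S1065.result (ZMod.card 3)

theorem no243 {F : Type*} [Field F] [Fintype F] (hq : Fintype.card F = 243)
    (φ : PSL(2, F) →* chevE8.group (ZMod 3)) (hφ : Function.Injective φ) : False :=
  haveI : Fact (Nat.Prime 61) := ⟨by norm_num⟩
  no_L2 (n := 5) (s := 61) (l := 2) hq
    (by decide) (by decide) (by decide)
    (by rw [card_E8]; decide +kernel) (by decide) (by decide) (by decide) (by decide)
    (by decide +kernel) datOK61 srchB61 full61 rfl (by simp) tabB61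
    (L := [2, 3, 4, 5, 6, 7, 3, 4, 5, 6, 3, 4, 5, 0, 2, 1, 3, 4, 2, 3, 0, 2, 1, 3, 1, 0])
    (by simp only [← wordF_eq 61 _ _ fun b => b]; decide +kernel) (by decide) φ hφ

theorem no729 {F : Type*} [Field F] [Fintype F] (hq : Fintype.card F = 729)
    (φ : PSL(2, F) →* chevE8.group (ZMod 3)) (hφ : Function.Injective φ) : False :=
  haveI : Fact (Nat.Prime 73) := ⟨by norm_num⟩
  no_L2 (n := 6) (s := 73) (l := 5) (A := 220) (B := 146) (R := [1, 2, 4, 5, 7, 13]) hq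
    (by decide) (by decide) (by decide)
    (by rw [card_E8]; decide +kernel) (by decide) (by decide) (by decide) (by decide)
    (by decide +kernel) datOK73 srchB73 (fun i hi => by
      interval_cases i
      exacts [full73_0, full73_1, full73_2, full73_3, full73_4]) good73 (by decide) tabB73
    (L := [7, 1, 3, 4, 2, 3, 0, 2, 1, 3, 4, 5, 6, 3, 4, 5, 4, 2, 1, 3, 2, 0])
    (by simp only [← wordF_eq 73 _ _ fun b => b]; decide +kernel) (by decide) φ hφ

end Cfsg.Agent.H50.E8L
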