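import Cfsg.Agent.H99.C1Defs

/-!
The Bruhat decomposition of the automizer of `E3`.
-/

set_option autoImplicit false

namespace Cfsg.Agent.H50.C1A3b

open Cfsg.Agent.H97 Cfsg.Agent.H96.VB Cfsg.Agent.H96.CP Cfsg.Agent.H99.C1 Subgroup

/-- The action on `E3 / R` and `R / N3`. -/
def Act (α : MulAut E3) (ε p q r s : K) : Prop :=
  (∀ g ∈ E3, (ext α g).a = ε * g.a) ∧
    ∀ g ∈ R, (ext α g).b = p * g.b + q * g.v ∧ (ext α g).v = r * g.b + s * g.v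

theorem lin {α : MulAut E3} (f : G → K) (hf : ∀ g ∈ E3, ∀ h ∈ E3, f (g * h) = f g + f h)
    (x : K → G) (hx : ∀ k, x k ∈ E3) (h0 : x 0 = x 0 * x 0) (h2 : x 2 = x 1 * x 1) (k : K) :
    f (ext α (x k)) = f (ext α (x 1)) * k := by
  have h3 : ∀ k : K, k = 0 ∨ k = 1 ∨ k = 2 := by decide
  rcases h3 k with rfl | rfl | rfl
  · have := hf _ (ext_mem α (hx 0)) _ (ext_mem α (hx 0))
    rw [← ext_map_mul α (hx 0) (hx 0), ← h0] at this
    linear_combination -this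
  · rw [mul_one]
  · rw [h2, ext_map_mul α (hx 1) (hx 1), hf _ (ext_mem α (hx 1)) _ (ext_mem α (hx 1))]; ring

theorem exists_act (ch : Ch3) (α : MulAut E3) : ∃ ε p q r s, Act α ε p q r s := by
  have fa : ∀ g ∈ E3, ∀ h ∈ E3, (g * h).a = g.a + h.a := fun _ _ _ _ => rfl
  have fb : ∀ g ∈ E3, ∀ h ∈ E3, (g * h).b = g.b + h.b := fun _ _ _ _ => rfl
  have fv : ∀ g ∈ E3, ∀ h ∈ E3, (g * h).v = g.v + h.v := fun g _ h e => by
    simp [mem_E3.1 e]
  refine ⟨(ext α (xa 1)).a, (ext α (xb 1)).b, (ext α (xv 1)).b, (ext α (xb 1)).v,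
    (ext α (xv 1)).v, fun g hg => ?_, fun g hg => ?_⟩
  · have h1 : xa g.a ∈ E3 := rfl
    have h2 : (xa g.a)⁻¹ * g ∈ R := mem_inf.2 ⟨by simp [mem_E1, xa], mul_mem (inv_mem h1) hg⟩
    have h3 := ext_map_mul α h1 h2.2
    rw [mul_inv_cancel_left] at h3
    rw [h3, G.mul_a, (mem_R.1 (ch.r.2 α _ h2.2 h2)).1, add_zero]
    exact lin G.a fa xa (fun _ => rfl) (by decide) (by decide) _
  · have h1 : xb g.b * xv g.v ∈ E3 := by simp [mem_E3, xb, xv]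
    obtain ⟨e1, e2⟩ := mem_R.1 hg
    have h2 : (xb g.b * xv g.v)⁻¹ * g ∈ N3 := by simp [mem_N3, xb, xv, e1, e2]
    have h3 := ext_map_mul α h1 (ch.n.1 h2)
    rw [mul_inv_cancel_left, ext_map_mul α (show xb g.b ∈ E3 from rfl) (show xv g.v ∈ E3 from rfl)]
      at h3
    obtain ⟨-, k2, k3, k4⟩ := mem_N3.1 (ch.n.2 α _ (ch.n.1 h2) h2)
    have k5 : (ext α (xv g.v)).t = 0 := ext_mem α (show xv g.v ∈ E3 from rfl)
    rw [h3]
    simp only [G.mul_b, G.mul_v, k2, k3, k4, k5, add_zero, mul_zero]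
    rw [lin G.b fb xb (fun _ => rfl) (by decide) (by decide),
      lin G.b fb xv (fun _ => rfl) (by decide) (by decide),
      lin G.v fv xb (fun _ => rfl) (by decide) (by decide) g.b,
      lin G.v fv xv (fun _ => rfl) (by decide) (by decide) g.v]
    exact ⟨rfl, rfl⟩

variable {α β : MulAut E3} {ε p q r s ε' p' q' r' s' : K}

theorem Act.mul (ch : Ch3) (h : Act α ε p q r s) (k : Act β ε' p' q' r' s') :
    Act (α * β) (ε * ε') (p * p' + q * r') (p * q' + q * s') (r * p' + s * r') (r * q' + s * s') :=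
  ⟨fun g hg => by rw [ext_mul, h.1 _ (ext_mem β hg), k.1 g hg, mul_assoc], fun g hg => by
    obtain ⟨h1, h2⟩ := h.2 _ (ch.r.2 β g hg.2 hg)
    obtain ⟨h3, h4⟩ := k.2 g hg
    rw [ext_mul, h1, h2, h3, h4]
    constructor <;> ring⟩

theorem Act.congr (h : Act α ε p q r s) (e : ε = ε' ∧ p = p' ∧ q = q' ∧ r = r' ∧ s = s') :
    Act α ε' p' q' r' s' := by
  obtain ⟨rfl, rfl, rfl, rfl, rfl⟩ := e; exact h

theorem Act.of_cj {g : G} (h : Cj α g) : Act α 1 1 0 (-g.t) 1 :=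
  ⟨fun x hx => by rw [h x hx]; simp, fun x hx => by
    rw [h x hx.2]
    constructor
    · simp
    · simp [(mem_R.1 hx).2]; ring⟩

theorem Act.eq_one (h : Act 1 ε p q r s) : ε = 1 ∧ p = 1 ∧ q = 0 ∧ r = 0 ∧ s = 1 := by
  have h1 := h.1 (xa 1) rfl
  have h2 := h.2 (xb 1) ⟨rfl, rfl⟩
  have h3 := h.2 (xv 1) ⟨rfl, rfl⟩
  simp only [ext_one, xa, xb, xv, mul_one, mul_zero, add_zero, zero_add] at h1 h2 h3
  exact ⟨h1.symm, h2.1.symm, h3.1.symm, h2.2.symm, h3.2.symm⟩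

theorem ex_cj (g : G) : ∃ β : MulAut E3, Cj β g := exists_cj (by rw [normalizer_eq_top]; trivial)

theorem nm_of (ch : Ch3) {A : Subgroup (MulAut E3)} (hA : LA 3 E3 A) (hK : Ker3 A) (hα : α ∈ A)
    (h : Act α ε p 0 r s) : Nm α := fun g => by
  obtain ⟨β, hβ⟩ := ex_cj g
  obtain ⟨ε', p', q', r', s', k⟩ := exists_act ch α⁻¹
  have h1 := h.mul ch k
  rw [mul_inv_cancel] at h1
  obtain ⟨e1, e2, e3, e4, e5⟩ := h1.eq_one
  obtain ⟨δ, hδ⟩ := ex_cj (xt (-(s * g.t * p')))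
  have h2 := (Act.of_cj hδ).mul ch ((h.mul ch (Act.of_cj hβ)).mul ch k)
  have h3 : Act (δ * (α * β * α⁻¹)) 1 1 0 0 1 := h2.congr (by
    simp only [xt]
    exact ⟨by linear_combination e1, by linear_combination e2, by linear_combination e3,
      by linear_combination (s * g.t * p') * e2 + e4, by linear_combination e5 + (s * g.t * q') * e2⟩)
  obtain ⟨e, -, he⟩ := hK _ (mul_mem (hA.cj _ _ hδ) (mul_mem (mul_mem hα (hA.cj _ _ hβ))
    (inv_mem hα))) (fun x hx => by rw [h3.1 x hx, one_mul]) fun x hx => by simpa using h3.2 x hx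
  have h4 := hδ.inv.mul he
  rw [inv_mul_cancel_left] at h4
  refine ⟨(xt (-(s * g.t * p')))⁻¹ * e, fun x hx => ?_⟩
  rw [← h4 _ (ext_mem α hx), ext_mul, ext_mul, ext_inv_ext, hβ x hx]

theorem sw_iff {n : MulAut E3} : Sw3 n ↔ Act n 1 0 (-1) 1 0 := by simp [Sw3, Act]

theorem a3b (ch : Ch3) : A3bStmt := fun C A hC hB hK => by
  have hA := hB.toLA
  have hq : ∀ q : K, q ≠ 0 → q * q = 1 := by decide
  refine ⟨fun n hn hs α hα => ?_, fun ⟨α, hα, hN⟩ => ?_⟩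
  · obtain ⟨ε, p, q, r, s, h⟩ := exists_act ch α
    by_cases h0 : q = 0
    · exact Or.inl (nm_of ch hA hK hα (h0 ▸ h))
    obtain ⟨β, hβ⟩ := ex_cj (xt (s * q))
    refine Or.inr ⟨β, _, hβ, nm_of ch hA hK (mul_mem (mul_mem hn (hA.cj _ _ hβ)) hα)
      ((((sw_iff.1 hs).mul ch (Act.of_cj hβ)).mul ch h).congr ⟨rfl, rfl, ?_, rfl, rfl⟩)⟩
    simp only [xt]
    linear_combination s * hq q h0
  obtain ⟨ε, p, q, r, s, h⟩ := exists_act ch α
  have h0 : q ≠ 0 := fun h0 => hN (nm_of ch hA hK hα (h0 ▸ h))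
  obtain ⟨β, hβ⟩ := ex_cj (xt (s * q))
  have h1 : Act (β * α) ε p q (r - s * q * p) 0 := ((Act.of_cj hβ).mul ch h).congr (by
    simp only [xt]
    exact ⟨by ring, by ring, by ring, by ring, by linear_combination (-s) * hq q h0⟩)
  have hγ : β * α ∈ A := mul_mem (hA.cj _ _ hβ) hα
  generalize β * α = γ at h1 hγ
  generalize r - s * q * p = r at h1
  obtain ⟨ε', p', q', r', s', k⟩ := exists_act ch γ⁻¹
  have h2 := h1.mul ch k
  rw [mul_inv_cancel] at h2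
  obtain ⟨e1, e2, e3, e4, e5⟩ := h2.eq_one
  obtain ⟨T, hT⟩ := ex_cj (xt (q * q'))
  obtain ⟨L, hL⟩ := ex_cj (xt (-1))
  have h3 := ((Act.of_cj hL).mul ch ((h1.mul ch (Act.of_cj hT)).mul ch k)).mul ch (Act.of_cj hL)
  have hn : L * (γ * T * γ⁻¹) * L ∈ A := mul_mem (mul_mem (hA.cj _ _ hL)
    (mul_mem (mul_mem hγ (hA.cj _ _ hT)) (inv_mem hγ))) (hA.cj _ _ hL)
  have h4 : Act (L * (γ * T * γ⁻¹) * L) 1 0 (-1) 1 0 := h3.congr (by
    simp only [xt]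
    refine ⟨by simpa using e1, ?_⟩
    clear * - e2 e3 e4 e5 h0
    revert p q r p' q' r' s'
    decide +kernel)
  generalize L * (γ * T * γ⁻¹) * L = n at hn h4
  refine ⟨?_, n, hn, sw_iff.2 h4⟩
  have h5 : Act (n * n) 1 (-1) 0 0 (-1) := (h4.mul ch h4).congr (by decide)
  obtain ⟨δ, hδ, h6⟩ := hB.ext _ (mul_mem hn hn) (nm_of ch hA hK (mul_mem hn hn) h5)
  obtain ⟨g, e, rfl, he⟩ := hC δ hδ
  have k1 := h5.1 (xa 1) rfl
  have k2 := (h5.2 (xb 1) ⟨rfl, rfl⟩).1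
  have k3 := (h5.2 (xv 1) ⟨rfl, rfl⟩).2
  rw [h6 _ rfl] at k1 k2 k3
  simp [tor_apply, torF, xa, xb, xv] at k1 k2 k3
  obtain ⟨e1, e2, e3⟩ := e
  have : (e1, e2, e3) = τ3 := by
    dsimp only at k1 k2 k3
    replace k3 : (e2 : K) * e3 = -1 := by linear_combination k3
    clear * - k1 k2 k3
    revert e1 e2 e3
    decide
  rwa [this] at he

end Cfsg.Agent.H50.C1A3b
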