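import Cfsg.Agent.H50.E72Defs

/-! Assembly of the nine cases. -/

set_option autoImplicit false

namespace Cfsg.Agent.H50.E72

open Equiv Cfsg.Lie Module Multiplicative
open scoped Matrix MatrixGroups

universe u v

theorem HasFix.of_closure {n : Type} [Fintype n] [DecidableEq n] {π : G0 →* Matrix n n (ZMod 2)}
    {X : Type u} [Group X] (φ : X →* G0) {a b : X} (h : Subgroup.closure {a, b} = ⊤)
    (hf : HasFix π {φ a, φ b}) : HasFix π (Set.range φ) := by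
  obtain ⟨v, hv, h1⟩ := hf
  refine ⟨v, hv, ?_⟩
  rintro _ ⟨g, rfl⟩
  have hg : g ∈ Subgroup.closure ({a, b} : Set X) := h ▸ Subgroup.mem_top g
  induction hg using Subgroup.closure_induction with
  | mem x hx => rcases hx with rfl | rfl <;> exact h1 _ (by simp)
  | one => simp
  | mul x y _ _ hx hy => rw [map_mul, map_mul, Module.End.mul_apply, hy, hx]
  | inv x _ hx =>
    conv_lhs => rw [← hx, ← Module.End.mul_apply, ← map_mul, ← map_mul, inv_mul_cancel]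
    simp

theorem fix19 (kit : KitStmt) (sc : ScottStmt) (c5 : C5Stmt) (e : Emb19Stmt.{u}) (F : Type u)
    [Field F] [Fintype F] (h : Fintype.card F = 19) : FixAll PSL(2, F) := by
  intro π hπ φ hφ
  obtain ⟨a, b, h1, h2, h3, h4, h5, h6⟩ := e F h
  refine HasFix.of_closure φ h6 (sc π hπ _ _ ?_)
  have e1 := (kit _ π).2.2.2.1 (φ a) (by rw [← map_mul, h1, map_one])
  have e2 := c5 π hπ (φ b) (by rw [← map_pow, h2, map_one]) ((map_ne_one_iff _ hφ).2 h3)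
  have e3 := c5 π hπ (φ (a * b)) (by rw [← map_pow, h4, map_one]) ((map_ne_one_iff _ hφ).2 h5)
  rw [map_mul] at e3
  rw [Fintype.card_fin] at e1
  omega

theorem fix27 (d : D27Stmt) (su : Sum27Stmt.{u}) (sp : Span27Stmt.{u}) (en : End27Stmt.{u})
    (e : Emb27Stmt.{u}) (F : Type u) [Field F] [Fintype F] (h : Fintype.card F = 27) :
    FixAll PSL(2, F) := by
  intro π hπ φ hφ
  obtain ⟨x, y, t, c⟩ := e F h
  obtain ⟨ω, hω, -⟩ := H34.exists_prim_unit K (N := 3) (by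
    rw [Ne, CharP.cast_eq_zero_iff K 2]; norm_num)
  obtain ⟨d1, d2, d3⟩ := d π hπ (φ.comp x) (φ y) ω hω (hφ.comp c.inj)
    (by rw [← map_pow, c.y13, map_one]) fun e => by
      simp only [MonoidHom.comp_apply, ← map_inv, ← map_mul, c.yx]
  by_contra hn
  have s1 := su π _ φ x y t c d3 hn
  exact hn (en π hπ _ φ x y t c d1 d3 s1 (sp π _ φ x y t ω hω c d1 d2 d3 hn s1))

section map
variable {Γ : Type u} {Δ : Type v} [Group Γ] [Group Δ] (φ : Γ →* Δ) (hφ : Function.Injective φ)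
include hφ

theorem CfgQ.map (h : CfgQ Γ) : CfgQ Δ := by
  obtain ⟨x, h1, h2⟩ := h
  exact ⟨φ.comp x, hφ.comp h1, fun e e' a b c => φ.map_isConj (h2 e e' a b c)⟩

theorem CfgG.map (h : CfgG Γ) : CfgG Δ := by
  obtain ⟨x, a, b, h1, h2, h3, h4, h5, h6, h7⟩ := h
  refine ⟨φ.comp x, φ a, φ b, hφ.comp h1, fun v w p q r => φ.map_isConj (h2 v w p q r),
    fun e => (h3 e).map φ, fun e => (h4 e).map φ, ?_, by rw [← map_pow, h6, map_one],
    fun i hi j hj k => ?_⟩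
  · simp only [MonoidHom.comp_apply, ← map_inv, ← map_mul, h5]
  · simpa only [MonoidHom.comp_apply, map_mul, map_pow] using φ.map_isConj (h7 i hi j hj k)

theorem CfgJ.map (h : CfgJ Γ) : CfgJ Δ := by
  obtain ⟨x, a, t, h1, h2, h3⟩ := h
  refine ⟨φ.comp x, φ a, φ t, hφ.comp h1, fun e => ?_, fun e => ?_⟩ <;>
    simp only [MonoidHom.comp_apply, ← map_inv, ← map_mul, h2, h3]

theorem CfgT.map (h : CfgT Γ) : CfgT Δ := by
  obtain ⟨x, w, h1, h2⟩ := h
  refine ⟨φ.comp x, φ w, hφ.comp h1, fun e => ?_⟩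
  simp only [MonoidHom.comp_apply, ← map_inv, ← map_mul, h2]

end map

theorem isEmpty_of {X : Type u} [Group X] {H : Subgroup G0} (L : Subgroup H)
    (h : ∀ φ : X →* G0, Function.Injective φ → False) : IsEmpty (L ≃* X) :=
  ⟨fun e => h ((H.subtype.comp L.subtype).comp e.symm.toMonoidHom)
    ((H.subtype_injective.comp L.subtype_injective).comp e.symm.injective)⟩

theorem final {F₁ F₂ F₃ F₄ : Type*} [Field F₁] [Field F₂] [Field F₃] [Field F₄]
    (H : Subgroup G0) (hH : IsCoatom H) (n1 : NoMax PSL(2, F₁)) (n2 : NoMax PSL(2, F₂))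
    (n3 : NoMax PSL(4, ZMod 3)) (eU : CfgQ (Cfsg.PSU 4 F₃ 3)) (eO : EmbOStmt) (nQ : NoQStmt)
    (eG : EmbGStmt) (nG : NoGStmt) (nA : NoMax (alternatingGroup (Fin 13))) (eJ : EmbJStmt)
    (nJ : NoJStmt) (e8 : CfgT (chevG2.group F₄)) (n8 : No8Stmt) :
    IsEmpty (generalizedFittingSubgroup H ≃* PSL(2, F₁)) ∧
    IsEmpty (generalizedFittingSubgroup H ≃* PSL(2, F₂)) ∧
    IsEmpty (generalizedFittingSubgroup H ≃* PSL(4, ZMod 3)) ∧
    IsEmpty (generalizedFittingSubgroup H ≃* Cfsg.PSU 4 F₃ 3) ∧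
    IsEmpty (generalizedFittingSubgroup H ≃* Cfsg.Omega (ZMod 3) (Cfsg.quadFormOdd 3 (ZMod 3))) ∧
    IsEmpty (generalizedFittingSubgroup H ≃* chevG2.group (ZMod 3)) ∧
    IsEmpty (generalizedFittingSubgroup H ≃* alternatingGroup (Fin 13)) ∧
    ¬ Cfsg.Spor.IsoJ2 (generalizedFittingSubgroup H) ∧
    IsEmpty (generalizedFittingSubgroup H ≃* chevG2.group F₄) :=
  ⟨n1 H hH, n2 H hH, n3 H hH, isEmpty_of _ fun φ h => nQ (eU.map φ h),
    isEmpty_of _ fun φ h => nQ (CfgQ.map φ h eO), isEmpty_of _ fun φ h => nG (CfgG.map φ h eG),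
    nA H hH, fun ⟨e⟩ => (isEmpty_of _ fun φ h => nJ (CfgJ.map φ h eJ)).false e,
    isEmpty_of _ fun φ h => n8 (e8.map φ h)⟩

theorem noMax3 (fa : FinAStmt.{u}) (fa0 : FinAStmt.{0}) (nu : NumStmt.{u}) {F : Type u} [Field F]
    [Fintype F] (h : Fintype.card F = 19) (f1 : FixAll PSL(2, F)) (f2 : L43Stmt) (f3 : A13Stmt) :
    NoMax PSL(2, F) ∧ NoMax PSL(4, ZMod 3) ∧ NoMax (alternatingGroup (Fin 13)) := by
  obtain ⟨n1, ⟨a2, b2, c2⟩, a3, b3, c3⟩ := nu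
  obtain ⟨a1, b1, c1⟩ := n1 F h
  exact ⟨fa _ f1 a1 ⟨1, by norm_num, b1⟩ (by rw [c1]; norm_num),
    fa0 _ f2 a2 ⟨2, le_rfl, b2⟩ (by rw [c2]; norm_num),
    fa0 _ f3 a3 ⟨1, by norm_num, b3⟩ (by rw [c3]; norm_num)⟩

end Cfsg.Agent.H50.E72
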