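import Cfsg.Agent.H50.E72Defs

/-! Kernel checks of the module of dimension 56, part 1. -/

set_option autoImplicit false
set_option maxRecDepth 100000

namespace Cfsg.Agent.H50.E72

open Cfsg.Lie H29

theorem chk_93 : chkR chevE7 H56 E56 93 = true := by decide +kernel
theorem chk_78 : chkR chevE7 H56 E56 78 = true := by decide +kernel
theorem chk_73 : chkR chevE7 H56 E56 73 = true := by decide +kernel
theorem chk_69 : chkR chevE7 H56 E56 69 = true := by decide +kernel
theorem chk_66 : chkR chevE7 H56 E56 66 = true := by decide +kernel
theorem chk_64 : chkR chevE7 H56 E56 64 = true := by decide +kernel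
theorem chk_63 : chkR chevE7 H56 E56 63 = true := by decide +kernel

theorem chk1 : Chk1Stmt := by
  intro r hr
  simp only [sr14, List.take, List.mem_cons, List.not_mem_nil, or_false] at hr
  rcases hr with rfl | rfl | rfl | rfl | rfl | rfl | rfl
  exacts [chk_93, chk_78, chk_73, chk_69, chk_66, chk_64, chk_63]

end Cfsg.Agent.H50.E72
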