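import Cfsg.Agent.H50.E72Defs

/-! Kernel checks of the module of dimension 56, part 2. -/

set_option autoImplicit false
set_option maxRecDepth 100000

namespace Cfsg.Agent.H50.E72

open Cfsg.Lie H29

theorem chk_32 : chkR chevE7 H56 E56 32 = true := by decide +kernel
theorem chk_47 : chkR chevE7 H56 E56 47 = true := by decide +kernel
theorem chk_52 : chkR chevE7 H56 E56 52 = true := by decide +kernel
theorem chk_56 : chkR chevE7 H56 E56 56 = true := by decide +kernel
theorem chk_59 : chkR chevE7 H56 E56 59 = true := by decide +kernel
theorem chk_61 : chkR chevE7 H56 E56 61 = true := by decide +kernel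
theorem chk_62 : chkR chevE7 H56 E56 62 = true := by decide +kernel

theorem chk2 : Chk2Stmt := by
  intro r hr
  simp only [sr14, List.drop, List.mem_cons, List.not_mem_nil, or_false] at hr
  rcases hr with rfl | rfl | rfl | rfl | rfl | rfl | rfl
  exacts [chk_32, chk_47, chk_52, chk_56, chk_59, chk_61, chk_62]

end Cfsg.Agent.H50.E72
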