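import Cfsg.Agent.H6.E82Defs

/-! The sum of the involutions on the simple modules of `SL₂(64)`. -/

set_option autoImplicit false

namespace Cfsg.Agent.H50.E82Emod

open H6.E82 H82 H50.SL2S Finset Module

theorem sum_pow (p : Par) {k : ℕ} (hk : k ≤ 63) :
    ∑ t : F, p.κ t ^ k = if k = 63 then 1 else 0 := by
  simp only [← map_pow, ← map_sum]
  split_ifs with h
  · have e : ∀ t : F, t ^ k = if t = 0 then 0 else 1 := fun t => by
      split_ifs with ht
      · rw [ht, h, zero_pow (by norm_num)]
      · rw [h, show 63 = Fintype.card F - 1 by rw [card_F]]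
        exact FiniteField.pow_card_sub_one_eq_one t ht
    have e2 : ∀ t : F, (if t = 0 then (0 : F) else 1) = 1 + if t = 0 then 1 else 0 := fun t => by
      split_ifs
      · exact (CharTwo.add_self_eq_zero 1).symm
      · exact (add_zero 1).symm
    simp only [e, e2, sum_add_distrib, sum_const, card_univ, sum_ite_eq', mem_univ, if_true,
      nsmul_eq_mul, FiniteField.cast_card_eq_zero, zero_mul, zero_add, map_one]
  · rw [FiniteField.sum_pow_lt_card_sub_one F k (by rw [card_F]; omega), map_zero]

theorem le_of_JS {r j : ℕ} (h : j ∈ JS r) : j ≤ r :=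
  Nat.lt_succ_iff.1 (mem_range.1 (mem_filter.1 h).1)

theorem zero_JS (r : ℕ) : 0 ∈ JS r := mem_filter.2 ⟨by simp, by simp⟩

theorem NU_mono (hA : MonaStmt) (p : Par) {r j : ℕ} (hr : r < 64) (hj : j ≤ r) :
    NU reg (mono p r j) = if j = 63 then mono p r 0 else 0 := by
  rw [NU, LinearMap.sum_apply]
  simp only [(hA p r hr j hj).1]
  rw [sum_comm]
  simp only [← sum_smul]
  rw [sum_eq_single_of_mem 0 (zero_JS j)]
  · rw [sum_pow p (by omega), Nat.sub_zero]
    split_ifs
    exacts [one_smul _ _, zero_smul _ _]
  · intro i hi h0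
    rw [sum_pow p (by omega), if_neg (by omega), zero_smul]

theorem emod (hM : MonoStmt) (hA : MonaStmt) (hE : EdecStmt) : EmodStmt := by
  intro p
  obtain ⟨⟨cf, hcf⟩, hM⟩ := hM p
  have hdec : Eop reg = NU reg + ∑ t : F, reg (uu t * ww F) * NU reg * reg (uu t * ww F)⁻¹ :=
    (hE _ reg).1
  have hcom : ∀ g, Commute (reg g) (Eop reg) := (hE _ reg).2.1
  have hu0 : ∀ t, reg (uu t) (mono p 63 0) = mono p 63 0 := fun t => by
    rw [(hA p 63 (by norm_num) 0 (by norm_num)).1, show JS 0 = {0} from rfl, sum_singleton]
    simp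
  refine ⟨fun r hr f hf => ?_, fun f hf hfix => ?_⟩
  · split_ifs with h
    · subst h
      let W : Submodule K (SL → K) := LinearMap.ker (Eop reg - 1)
      have hW : ∀ f, f ∈ W ↔ Eop reg f = f := fun f => by
        rw [LinearMap.mem_ker, LinearMap.sub_apply, sub_eq_zero, Module.End.one_apply]
      have hw := (hA p 63 (by norm_num) 63 le_rfl).2.2
      have hw0 := (hA p 63 (by norm_num) 0 (by norm_num)).2.2
      rw [Nat.sub_self] at hw
      rw [Nat.sub_zero] at hw0
      have h0 : Eop reg (mono p 63 0) = mono p 63 0 := by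
        have e : ∀ t : F, (reg (uu t * ww F) * NU reg * reg (uu t * ww F)⁻¹) (mono p 63 0) =
            reg (uu t) (mono p 63 63) := fun t => by
          have e1 : reg (uu t * ww F)⁻¹ (mono p 63 0) = mono p 63 63 := by
            conv_lhs => rw [← hu0 t, ← hw, ← Module.End.mul_apply (reg (uu t)), ← map_mul,
              ← Module.End.mul_apply, ← map_mul, inv_mul_cancel, map_one]
            rfl
          rw [Module.End.mul_apply, Module.End.mul_apply, e1, NU_mono hA p (by norm_num) le_rfl,
            if_pos rfl, map_mul, Module.End.mul_apply, hw0]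
        rw [hdec, LinearMap.add_apply, LinearMap.sum_apply, NU_mono hA p (by norm_num) (by norm_num),
          if_neg (by norm_num), zero_add]
        simp only [e]
        rw [← LinearMap.sum_apply, ← NU, NU_mono hA p (by norm_num) le_rfl, if_pos rfl]
      have h1 : ∀ t : F, (cc p.κ + p.κ t • dd p.κ) ^ 63 ∈ W := fun t => by
        have e : reg (ll t) (mono p 63 0) = (cc p.κ + p.κ t • dd p.κ) ^ 63 := by
          rw [reg_apply, mono, pow_zero, mul_one, map_pow]
          congr 1
          have := RR_lin p.κ (ll t) 1 0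
          simpa [ll_00, ll_01, ll_10, ll_11] using this
        rw [← e, hW, ← Module.End.mul_apply, ← (hcom _).eq, Module.End.mul_apply, h0]
      exact (hW f).1 (Sp_le 2 (fun j hj hp => mono_mem p.κ.injective (by rw [card_F]; norm_num) 2
        h1 hj hp) hf)
    · have hN : ∀ f ∈ SP p r, NU reg f = 0 := fun f hf => by
        obtain ⟨c, rfl⟩ := ((hM r hr).1 f).1 hf
        rw [map_sum]
        refine sum_eq_zero fun j hj => ?_
        have := le_of_JS hj
        rw [map_smul, NU_mono hA p hr this, if_neg (by omega), smul_zero]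
      rw [hdec, LinearMap.add_apply, LinearMap.sum_apply, hN f hf, zero_add]
      refine sum_eq_zero fun t _ => ?_
      rw [Module.End.mul_apply, Module.End.mul_apply, hN _ ((hM r hr).2.2 _ f hf), map_zero]
  · obtain ⟨c, rfl⟩ := ((hM 63 (by norm_num)).1 f).1 hf
    have hJ : JS 63 = range (63 + 1) := by decide
    have e0 : ∀ i ≤ 63, cf 0 (mono p 63 i) = if i = 0 then 1 else 0 := fun i hi => by
      rw [hcf 63 (by norm_num) i hi 0]
      exact if_congr eq_comm rfl rfl
    have key : ∀ t : F, ∑ j ∈ range (63 + 1), p.κ t ^ j • (if j = 0 then 0 else c j) ∈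
        (⊥ : Submodule K K) := fun t => by
      have h1 := congrArg (cf 0) (hfix t)
      rw [map_sum, map_sum, map_sum, hJ] at h1
      have h2 : ∀ j ∈ range (63 + 1), cf 0 (reg (uu t) (c j • mono p 63 j)) =
          p.κ t ^ j • (if j = 0 then 0 else c j) + cf 0 (c j • mono p 63 j) := fun j hj => by
        have hj' : j ≤ 63 := Nat.lt_succ_iff.1 (mem_range.1 hj)
        rw [map_smul, map_smul, map_smul, (hA p 63 (by norm_num) j hj').1, map_sum,
          sum_eq_single_of_mem 0 (zero_JS j), map_smul, e0 0 (by norm_num), e0 j hj']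
        · split_ifs with h1 h2
          · simp [h2]
          · simp [mul_comm]
          · exact absurd rfl h1
          · exact absurd rfl h1
        · intro i hi h0
          rw [map_smul, e0 i ((le_of_JS hi).trans hj'), if_neg h0, smul_zero]
      rw [sum_congr rfl h2, sum_add_distrib, add_eq_right] at h1
      exact h1
    have hc := vand p.κ.injective ⊥ _ (by rw [card_F]; norm_num) key
    refine ⟨c 0, sum_eq_single_of_mem 0 (zero_JS 63) fun j hj h0 => ?_⟩
    have := hc j (le_of_JS hj)
    rw [if_neg h0, Submodule.mem_bot] at this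
    rw [this, zero_smul]

end Cfsg.Agent.H50.E82Emod
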