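import Cfsg.Agent.H73.GagDefs
import Cfsg.Agent.H39.SzBasic

/-! Project GAG: three facts on the Suzuki groups. -/

set_option autoImplicit false

namespace Cfsg.Agent.H50.Gag

open Cfsg Subgroup Cfsg.Agent.H73.Gag

universe u

theorem fsz : FszStmt.{u} := fun G _ _ ⟨F, _, _, m, hm, hF, ⟨e⟩⟩ => by
  have := H39.szField_of_card hm hF
  let S := (H39.lieModel hF).comap e
  refine ⟨S.not_three_dvd_card, fun P Q h => eq_bot_iff.2 fun x hx => by_contra fun x1 => h ?_,
    S.u 1 0, (orderOf_eq_prime_pow (p := 2) (n := 1) (fun h => ?_) (S.u_pow_four 1 0))⟩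
  · obtain ⟨g, hg⟩ := S.exists_twist_U_eq P
    generalize S.twist g = T at hg
    obtain ⟨k, hk⟩ := T.exists_twist_U_eq Q
    have h3 : k ∈ T.B := T.mem_B_of_conj_mem_B' (T.mem_twist_U.1 (hk.ge hx.2))
      (fun e => x1 (by rw [mem_bot, ← mul_inv_cancel_right x k, ← mul_inv_cancel_left k x,
        mul_assoc k, e]; group)) (by simpa [mul_assoc] using T.U_le_B (hg.ge hx.1))
    refine Sylow.ext (hg ▸ hk ▸ Subgroup.ext fun y => ?_)
    rw [T.mem_twist_U]
    exact ⟨fun h => by simpa using T.conj_mem_U (inv_mem h3) h,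
      fun h => by simpa [mul_assoc] using T.conj_mem_U h3 h⟩
  · rw [pow_one, sq, S.u_sq, S.u_eq_one_iff] at h
    simpa using h.2

end Cfsg.Agent.H50.Gag
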