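import Mathlib
import Cfsg.Agent.H50.L81Defs
import Cfsg.Agent.H50.E8L2

/-! Assembly for subgroups of `E₈(3)` with generalized Fitting subgroup `L₂(3 ^ n)`. -/

set_option autoImplicit false

namespace Cfsg.Agent.H50.L81

open H50.E83
open scoped MatrixGroups

universe u

theorem fin_of (red : RedStmt.{u}) (par : ParStmt) (ch : CharStmt) (ca : CaseaStmt)
    (cz : CasezStmt) (ce : CaseeStmt) (n7 : N7Stmt.{u})
    {E : Type u} [Field E] [Fintype E] (n : ℕ) (hn : n = 4 ∨ n = 5 ∨ n = 6 ∨ n = 7)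
    (hE : Fintype.card E = 3 ^ n) (H : Subgroup G0)
    (hH : Nonempty (Cfsg.generalizedFittingSubgroup H ≃* PSL(2, E))) : ¬ IsCoatom H := by
  intro hc
  obtain ⟨e⟩ := hH
  let φ : PSL(2, E) →* G0 :=
    H.subtype.comp ((Cfsg.generalizedFittingSubgroup H).subtype.comp e.symm.toMonoidHom)
  have hφ : Function.Injective φ :=
    H.subtype_injective.comp ((Subgroup.subtype_injective _).comp e.symm.injective)
  rcases hn with rfl | rfl | rfl | rfl
  · obtain ⟨ψ, hψ⟩ := red E hE H ⟨e⟩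
    obtain ⟨⟨p⟩, -⟩ := par
    obtain ⟨i, hi, h1, t, h2, h3⟩ := ch ψ hψ.1 p
    have : Case i := by
      interval_cases i
      exacts [ca 0 (by decide), ca 1 (by decide), ca 2 (by decide), cz 3 (by decide), ce,
        cz 5 (by decide), cz 6 (by decide)]
    exact this H ψ hc hψ p h1 t h2 h3
  · exact H50.E8L.no243 hE φ hφ
  · exact H50.E8L.no729 hE φ hφ
  · exact n7 E hE φ hφ

end Cfsg.Agent.H50.L81
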