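import Cfsg.Agent.H6.TBDefs
import Cfsg.Agent.H92.RcB
import Cfsg.Agent.H52.FStar
import Cfsg.Agent.H3.Cores
import Cfsg.Agent.H4.CoprimeGen
import Cfsg.Agent.H67.Pi
import Cfsg.Agent.S1783

/-! Project TB: facts on `O₂(N(P))`. -/

set_option autoImplicit false
set_option linter.unusedSectionVars false

namespace Cfsg.Agent.H50.TB

open Cfsg Subgroup Cfsg.Agent.H6.TB
open Cfsg.Agent.H83 (cj)
open scoped Cfsg.Agent.H63 commutatorElement

universe u

variable {G : Type u} [Group G] [Finite G]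

instance f2 : Fact (Nat.Prime 2) := ⟨Nat.prime_two⟩

theorem oo_two (P : Subgroup G) : IsPGroup 2 (oo P) := (H3.pCore_isPGroup 2 _).map _

theorem oo_nrm (P : Subgroup G) : N[P] ≤ N[oo P] := H67.le_normalizer_map_subtype _

theorem eq_one_of_odd {d : G} {Q : Subgroup G} (hQ : IsPGroup 2 Q) (hd : d ∈ Q) {n : ℕ} (hn : Odd n)
    (h : d ^ n = 1) : d = 1 := by
  obtain ⟨k, hk⟩ := hQ ⟨d, hd⟩
  exact orderOf_eq_one_iff.1 (Nat.eq_one_of_dvd_coprimes (Nat.Coprime.pow_right k hn.coprime_two_right)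
    (orderOf_dvd_of_pow_eq_one h) (orderOf_dvd_of_pow_eq_one (congrArg Subtype.val hk)))

theorem gb : GBStmt.{u} := fun {G} _ _ Ω gm la => by
  have cent : ∀ P ∈ Ω, ∀ g ∈ N[P], g ∈ C[oo P] → g ∈ oo P := fun P hP g hg hc =>
    ⟨⟨g, hg⟩, gm.ch P hP fun y hy => Subtype.ext (hc y ⟨y, hy, rfl⟩), rfl⟩
  refine ⟨fun P _ => oo_two P, fun P _ => map_subtype_le _, fun P _ => oo_nrm P,
    fun P hP x hx => ⟨⟨x, le_normalizer hx⟩, H3.le_pCore (N := P.subgroupOf N[P])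
      ((gm.two P hP).comap_subtype) hx, rfl⟩, cent, ?_,
    fun B _ X hX h => (oo_two B).to_sup_of_normal_left' hX (h.trans (oo_nrm B)),
    fun B hB P hP h x hx => ?_, fun B hB a ha a2 h1 h2 => ?_⟩
  · obtain ⟨P, hP⟩ := gm.ne
    have hO : (Nat.card (pPrimeCore 2 G)).Coprime 2 := H3.pPrimeCore_coprime 2 G
    have : IsMulCommutative (om P) := ⟨⟨fun a b => Subtype.ext (gm.comm P hP _ (om_le P a.2) _
      (om_le P b.2))⟩⟩
    have h2 : ∀ Q : Subgroup G, IsPGroup 2 Q → (Nat.card Q).Coprime (Nat.card (pPrimeCore 2 G)) :=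
      fun Q hQ => by
        obtain ⟨n, hn⟩ := hQ.exists_card_eq
        exact hn ▸ hO.symm.pow_left n
    have h3 : pPrimeCore 2 G ≤ N[P] := H4.le_of_centralizer_singleton_le (A := om P) (fun cy => by
        have := cy.exponent_eq_card ▸ Monoid.exponent_dvd_of_forall_pow_eq_one (G := om P) (n := 2)
          fun b => Subtype.ext (by simpa [sq] using ((la.mem_om P hP b).1 b.2).2)
        have := Nat.le_of_dvd two_pos this
        have := gm.four P hP
        omega) le_normalizer_of_normal (h2 _ ((gm.two P hP).to_le (om_le P)))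
      fun a ha a1 g hg => la.cent P hP a (om_le P ha) a1 g (mem_centralizer_singleton_iff.1 hg.2)
    have h4 := H67.inf_eq_bot_of_coprime' (h2 _ (oo_two P))
    refine eq_bot_iff.2 fun g hg => h4.le ⟨cent P hP g (h3 hg) fun y hy => ?_, hg⟩
    rw [← commutatorElement_eq_one_iff_mul_comm, ← mem_bot, ← h4, commutatorElement_def]
    refine mem_inf.2 ⟨?_, mul_mem ((pPrimeCore_normal 2 G).conj_mem g hg y) (inv_mem hg)⟩
    rw [mul_assoc, mul_assoc, ← mul_assoc g]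
    exact mul_mem hy ((mem_normalizer_iff.1 (oo_nrm P (h3 hg)) _).1 (inv_mem hy))
  · refine ⟨⟨x, h hx⟩ ^ 2, (S1783.result (H52.fstar_eq_pCore_iff_centralizer_le.2 (gm.ch B hB))
      (P.subgroupOf N[B]) (gm.two P hP).comap_subtype
      ⟨⟨fun a b => Subtype.ext (Subtype.ext (gm.comm P hP _ a.2 _ b.2))⟩⟩ fun g => ?_).1
      (subset_closure ⟨_, hx, rfl⟩), sq x⟩
    have e : ∀ y : N[B], y ∈ (P.subgroupOf N[B]).map (MulAut.conj g).toMonoidHom ↔
        (y : G) ∈ cj (g : G) P := fun y =>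
      (H83.mem_cj (g := g)).trans (H83.mem_cj (g := (g : G)) (H := P)).symm
    by_cases h3 : cj (g : G) P = P
    · exact Or.inl (Subgroup.ext fun y => by rw [e, h3]; rfl)
    · exact Or.inr (eq_bot_iff.2 fun y hy => Subtype.ext (mem_bot.1
        ((gm.ti _ (gm.conj P hP g) P hP h3).le ⟨(e y).1 hy.1, hy.2⟩)))
  by_contra hn
  have aN := la.com B hB ha
  obtain ⟨⟨y, yN⟩, yo, y1, yi⟩ := H92.RC.exists_odd_inv (y := (⟨a, aN⟩ : N[B]))
    ⟨1, Subtype.ext (by simpa [sq] using a2)⟩ (by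
      rw [show (⟨a, aN⟩ * ⟨a, aN⟩ : N[B]) = 1 from Subtype.ext a2]; exact one_mem _)
    fun N _ hN h => hn ⟨_, H3.le_pCore hN h, rfl⟩
  replace yi : a * y * a⁻¹ = y⁻¹ := congrArg Subtype.val yi
  rw [← orderOf_coe] at yo
  have ai : a⁻¹ = a := inv_eq_of_mul_eq_one_right a2
  have e : y * y = a * (y⁻¹ * a * y⁻¹⁻¹) := by
    calc _ = (a * y * a⁻¹)⁻¹ * y := by rw [yi, inv_inv]
      _ = a * (y⁻¹ * a⁻¹ * y⁻¹⁻¹) := by group
      _ = _ := by rw [ai]
  have o2 : Odd (orderOf (y * y)) := yo.of_dvd_nat (by rw [← sq]; exact orderOf_pow_dvd 2)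
  have nA : ∀ {m b}, m ∈ N[B] → b ∈ om B → m * b * m⁻¹ ∈ om B := fun hm hb =>
    (mem_normalizer_iff.1 (norm_om hm) _).1 hb
  have hb : y⁻¹ * a * y⁻¹⁻¹ ∈ C[om B] :=
    (mem_normalizer_iff.1 (H83.normalizer_le_normalizer_centralizer _ (norm_om (inv_mem yN))) _).1 ha
  have h3 : ∀ x ∈ B, ⁅x, y⁻¹ * a * y⁻¹⁻¹⁆ ∈ om B := fun x hx => by
    have := nA (inv_mem yN) (h1 _ ((mem_normalizer_iff.1 yN x).1 hx))
    rwa [show y⁻¹ * ⁅y * x * y⁻¹, a⁆ * y⁻¹⁻¹ = ⁅x, y⁻¹ * a * y⁻¹⁻¹⁆ by group] at this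
  have cA := e ▸ mul_mem ha hb
  have cB : y * y ∈ C[B] := fun x hx => by
    have h4 : ⁅x, y * y⁆ ∈ om B := by
      rw [e, show ∀ b, ⁅x, a * b⁆ = ⁅x, a⁆ * (a * ⁅x, b⁆ * a⁻¹) by intro b; group]
      exact mul_mem (h1 x hx) (nA aN (h3 x hx))
    generalize y * y = ρ at h4 cA o2
    refine commutatorElement_eq_one_iff_mul_comm.1 (eq_one_of_odd ((gm.two B hB).to_le (om_le B))
      h4 o2 ?_)
    have := Commute.mul_pow (cA _ h4) (orderOf ρ)
    rw [pow_orderOf_eq_one, mul_one, show ⁅x, ρ⁆ * ρ = x * ρ * x⁻¹ by group, conj_pow,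
      pow_orderOf_eq_one] at this
    rw [← this]; group
  have h5 := h2 _ (inv_mem yN) _ e o2 cB
  have ρN := mul_mem yN yN
  have h6 : y * y = 1 := by
    generalize y * y = ρ at h5 cB o2 ρN
    refine eq_one_of_odd (oo_two B) (cent B hB ρ ρN fun r hr => ?_) o2 (pow_orderOf_eq_one ρ)
    have h7 : ⁅r, ρ⁆ ∈ oo B := by
      rw [commutatorElement_def, mul_assoc, mul_assoc, ← mul_assoc ρ]
      exact mul_mem hr ((mem_normalizer_iff.1 (oo_nrm B ρN) _).1 (inv_mem hr))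
    refine commutatorElement_eq_one_iff_mul_comm.1 (eq_one_of_odd (oo_two B) h7 o2 ?_)
    have := Commute.mul_pow (h5 _ h7 (mul_mem ((mem_normalizer_iff.1
      (H83.normalizer_le_normalizer_centralizer _ (map_subtype_le _ hr)) _).1 cB)
      (inv_mem cB))).symm (orderOf ρ)
    rw [pow_orderOf_eq_one, mul_one, show ⁅r, ρ⁆ * ρ = r * ρ * r⁻¹ by group, conj_pow,
      pow_orderOf_eq_one] at this
    rw [← this]; group
  exact y1 (Subtype.ext (orderOf_eq_one_iff.1 (Nat.eq_one_of_dvd_coprimes yo.coprime_two_right dvd_rfl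
    (orderOf_dvd_of_pow_eq_one (by rwa [sq])))))

end Cfsg.Agent.H50.TB
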