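import Mathlib
import Cfsg.Agent.H61.TransLin
import Cfsg.Agent.H38.HupF
import Cfsg.Agent.H52.FStar

/-! Linear groups of odd dimension and odd characteristic that are transitive on the non-zero
vectors: the Fitting subgroup is cyclic and fixed point free; weights of commuting involutions. -/

set_option autoImplicit false
set_option linter.unusedSectionVars false

namespace Cfsg.Agent.H50.TT3

open Cfsg Subgroup
open scoped commutatorElement

variable {Γ V : Type*} [Group Γ] [AddCommGroup V] [DistribMulAction Γ V]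
  (p : ℕ) [hp : Fact p.Prime] [Module (ZMod p) V]

variable (V) in
/-- the action as a linear representation -/
def lin : Γ →* Module.End (ZMod p) V where
  toFun g := (DistribSMul.toAddMonoidHom V g).toZModLinearMap p
  map_one' := by ext v; simp
  map_mul' a b := by ext v; simp [mul_smul]

@[simp] theorem lin_apply (g : Γ) (v : V) : lin V p g v = g • v := rfl

theorem smul_zsmul (g : Γ) (c : ZMod p) (v : V) : g • c • v = c • g • v :=
  (lin V p g).map_smul c v

variable (V) in
/-- the determinant -/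
noncomputable def dt : Γ →* ZMod p := LinearMap.det.comp (lin V p)

theorem dt_commutator {g : Γ} (hg : g ∈ commutator Γ) : dt V p g = 1 := by
  have h := Abelianization.commutator_subset_ker (dt (Γ := Γ) V p).toHomUnits hg
  rw [MonoidHom.mem_ker] at h
  have := congrArg Units.val h
  simpa using this

theorem dt_of_perfect {L : Subgroup Γ} (hL : ⁅L, L⁆ = L) {g : Γ} (hg : g ∈ L) : dt V p g = 1 :=
  dt_commutator p (commutator_mono le_top le_top (hL.ge hg))

variable (Γ V) in
/-- the standing hypotheses -/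
structure TL : Prop where
  tl : H61.IsTL Γ V
  p2 : p ≠ 2
  odd : Odd (Module.finrank (ZMod p) V)

variable {p} [Finite V]

theorem neg_one_ne (h2 : p ≠ 2) : (-1 : ZMod p) ≠ 1 := by
  intro h
  have : ((2 : ℕ) : ZMod p) = 0 := by push_cast; linear_combination -h
  rw [ZMod.natCast_eq_zero_iff] at this
  exact h2 ((Nat.prime_dvd_prime_iff_eq hp.out Nat.prime_two).1 this)

theorem eq_zero_of_neg (h2 : p ≠ 2) {v : V} (h : -v = v) : v = 0 := by
  have h1 : ((-1 : ZMod p) - 1) • v = 0 := by rw [sub_smul, neg_smul, one_smul, h, sub_self]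
  exact (smul_eq_zero.1 h1).resolve_left (sub_ne_zero.2 (neg_one_ne h2))

namespace TL

variable (h : TL Γ V p)
include h

theorem nontrivial : Nontrivial V := by
  by_contra hn
  rw [not_nontrivial_iff_subsingleton] at hn
  have := h.odd
  rw [Module.finrank_zero_of_subsingleton] at this
  exact absurd this (by decide)

theorem faithful : FaithfulSMul Γ V :=
  ⟨fun {a b} e => h.tl.eq_of_smul_eq e⟩

theorem p_smul (v : V) : p • v = 0 := by
  rw [← Nat.cast_smul_eq_nsmul (ZMod p), ZMod.natCast_self, zero_smul]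

/-- a real element of determinant one fixes a non-zero vector -/
theorem exists_fix {y g : Γ} (hy : dt V p y = 1) (hg : g * y * g⁻¹ = y⁻¹) :
    ∃ v : V, v ≠ 0 ∧ y • v = v := by
  by_contra hn
  push Not at hn
  have hinj : LinearMap.det (lin V p y - 1) ≠ 0 := by
    intro h0
    obtain ⟨v, hv, hv0⟩ := (Submodule.ne_bot_iff _).1
      (LinearMap.bot_lt_ker_of_det_eq_zero h0).ne'
    exact hn v hv0 (by simpa [sub_eq_zero] using hv)
  have h1 : lin V p y⁻¹ - 1 = lin V p g * (lin V p y - 1) * lin V p g⁻¹ := by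
    rw [mul_sub, sub_mul, mul_one, ← map_mul, ← map_mul, ← map_mul, hg, mul_inv_cancel, map_one]
  have h2 : lin V p y⁻¹ - 1 = (-1 : ZMod p) • (lin V p y⁻¹ * (lin V p y - 1)) := by
    rw [mul_sub, ← map_mul, inv_mul_cancel, map_one, mul_one, neg_smul, one_smul, neg_sub]
  have hgg : LinearMap.det (lin V p g) * LinearMap.det (lin V p g⁻¹) = 1 := by
    rw [← map_mul, ← map_mul, mul_inv_cancel, map_one, map_one]
  have hyy : LinearMap.det (lin V p y⁻¹) = 1 := by
    have : dt V p y⁻¹ * dt V p y = 1 := by rw [← map_mul, inv_mul_cancel, map_one]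
    rw [hy, mul_one] at this
    exact this
  have h3 := congrArg LinearMap.det (h1.symm.trans h2)
  rw [LinearMap.det_smul, map_mul, map_mul, map_mul, hyy, h.odd.neg_one_pow] at h3
  have h4 : ((-1 : ZMod p) - 1) * LinearMap.det (lin V p y - 1) = 0 := by
    linear_combination -h3 + LinearMap.det (lin V p y - 1) * hgg
  exact (mul_ne_zero (sub_ne_zero.2 (neg_one_ne h.p2)) hinj) h4

theorem exists_fix_inv {y : Γ} (hy : dt V p y = 1) (h2 : y * y = 1) :
    ∃ v : V, v ≠ 0 ∧ y • v = v :=
  h.exists_fix (g := 1) hy (by rw [one_mul, inv_one, mul_one, eq_inv_iff_mul_eq_one, h2])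

theorem fpf_of_comm (N : Subgroup Γ) [N.Normal] (hN : ∀ a ∈ N, ∀ b ∈ N, a * b = b * a)
    {n : Γ} (hn : n ∈ N) (h1 : n ≠ 1) {v : V} (hv : n • v = v) : v = 0 := by
  have := h.nontrivial
  obtain ⟨K, _, _, _, φ, hK, -⟩ := h.tl.exists_field_of_normal N (Or.inl hN)
  obtain ⟨c, hc⟩ := hK n hn
  by_contra h0
  have : (c - 1) • v = 0 := by rw [sub_smul, ← hc, hv, one_smul, sub_self]
  have hc1 : c = 1 := sub_eq_zero.1 ((smul_eq_zero.1 this).resolve_right h0)
  exact h1 (h.tl.faithful n fun w => by rw [hc, hc1, one_smul])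

variable [Finite Γ]

theorem comm_of_two (P : Subgroup Γ) [hPn : P.Normal] (hP : IsPGroup 2 P) :
    ∀ a ∈ P, ∀ b ∈ P, a * b = b * a := by
  by_contra hn
  have hne : commutator P ≠ ⊥ := fun e => hn fun a ha b hb => by
    have : ⁅(⟨a, ha⟩ : P), (⟨b, hb⟩ : P)⁆ ∈ commutator P :=
      commutator_mem_commutator (mem_top _) (mem_top _)
    rw [e, mem_bot, commutatorElement_eq_one_iff_mul_comm] at this
    exact congrArg Subtype.val this
  have := hP.isNilpotent
  obtain ⟨⟨z, hz1, hz2⟩, hz⟩ := (ne_bot_iff_exists_ne_one).1 (H3.inf_center_ne_bot _ hne)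
  have hz' : z ≠ 1 := fun e => hz (Subtype.ext e)
  obtain ⟨k, hk⟩ := hP z
  have hk0 : 2 ∣ orderOf z := by
    obtain ⟨j, -, hj⟩ := (Nat.dvd_prime_pow Nat.prime_two).1 (orderOf_dvd_of_pow_eq_one hk)
    rcases j with _ | j
    · exact absurd (orderOf_eq_one_iff.1 (by simpa using hj)) hz'
    · rw [hj]; exact dvd_pow_self 2 j.succ_ne_zero
  set y : P := z ^ (orderOf z / 2) with hy
  have hyo : orderOf y = 2 := orderOf_pow_orderOf_div (orderOf_pos z).ne' hk0
  have hyc : (y : Γ) ∈ commutator Γ := by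
    have : (commutator P).map P.subtype ≤ commutator Γ := by
      rw [commutator_def, map_commutator]; exact commutator_mono le_top le_top
    exact this ⟨y, pow_mem hz1 _, rfl⟩
  have hy2 : (y : Γ) * y = 1 := by
    rw [← coe_mul, ← pow_two, ← hyo, pow_orderOf_eq_one]; rfl
  obtain ⟨v, hv0, hv⟩ := h.exists_fix_inv (dt_commutator p hyc) hy2
  let Z : Subgroup Γ := P ⊓ centralizer (P : Set Γ)
  have hyZ : (y : Γ) ∈ Z := ⟨y.2, fun a ha =>
    congrArg Subtype.val (mem_center_iff.1 (pow_mem hz2 (orderOf z / 2)) ⟨a, ha⟩)⟩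
  refine hv0 (h.fpf_of_comm Z (fun a ha b hb => hb.2 a ha.1) hyZ (fun e => ?_) hv)
  rw [show y = 1 from Subtype.ext e, orderOf_one] at hyo
  exact absurd hyo (by decide)

theorem pgroup_normal {r : ℕ} [Fact r.Prime] (P : Subgroup Γ) [hPn : P.Normal]
    (hP : IsPGroup r P) : IsCyclic P ∧ ∀ g ∈ P, g ≠ 1 → ∀ a : V, g • a = a → a = 0 := by
  have := h.nontrivial
  have := h.faithful
  by_cases h2 : r = 2
  · subst h2
    exact ⟨h.tl.isCyclic_of_comm P (h.comm_of_two P hP),
      fun g hg h1 a ha => h.fpf_of_comm P (h.comm_of_two P hP) hg h1 ha⟩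
  have hconst : ∀ a b : V, a ≠ 0 → b ≠ 0 →
      Nat.card (MulAction.stabilizer P a) = Nat.card (MulAction.stabilizer P b) := by
    intro a b ha hb
    obtain ⟨d, rfl⟩ := h.tl.trans a b ha hb
    refine Nat.card_congr
      { toFun := fun y => ⟨⟨d * y.1 * d⁻¹, hPn.conj_mem _ y.1.2 d⟩, ?_⟩
        invFun := fun y => ⟨⟨d⁻¹ * y.1 * d, hPn.conj_mem' _ y.1.2 d⟩, ?_⟩
        left_inv := fun y => by ext; simp [mul_assoc]
        right_inv := fun y => by ext; simp [mul_assoc] }
    · have : (y.1 : Γ) • a = a := y.2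
      change (d * y.1 * d⁻¹) • d • a = d • a
      rw [mul_smul, mul_smul, inv_smul_smul, this]
    · have : (y.1 : Γ) • d • a = d • a := y.2
      change (d⁻¹ * y.1 * d) • a = a
      rw [mul_smul, mul_smul, this, inv_smul_smul]
  obtain ⟨h1, h3⟩ := H38.huppert_pgroup h2 hP hp.out h.p_smul hconst
  exact ⟨h1, fun g hg hg1 a ha => h3 ⟨g, hg⟩ (fun e => hg1 (congrArg Subtype.val e)) a ha⟩

theorem fitting_cyclic : IsCyclic (fittingSubgroup Γ) := by
  have := H3.fitting_normal Γ
  have := H3.fitting_isNilpotent Γ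
  have : IsZGroup (fittingSubgroup Γ) := ⟨fun r hr S => by
    have : Fact r.Prime := ⟨hr⟩
    have hSn : (S : Subgroup (fittingSubgroup Γ)).Normal := inferInstance
    have := Sylow.characteristic_of_normal S hSn
    have h1 := (h.pgroup_normal ((S : Subgroup (fittingSubgroup Γ)).map (fittingSubgroup Γ).subtype)
      (S.isPGroup'.map _)).1
    exact isCyclic_of_surjective _
      (equivMapOfInjective _ _ (fittingSubgroup Γ).subtype_injective).symm.surjective⟩
  infer_instance

theorem fitting_comm : ∀ a ∈ fittingSubgroup Γ, ∀ b ∈ fittingSubgroup Γ, a * b = b * a := by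
  intro a ha b hb
  have := h.fitting_cyclic
  exact congrArg Subtype.val ((IsCyclic.commGroup (α := fittingSubgroup Γ)).mul_comm
    ⟨a, ha⟩ ⟨b, hb⟩)

theorem fitting_fpf {n : Γ} (hn : n ∈ fittingSubgroup Γ) (h1 : n ≠ 1) {v : V} (hv : n • v = v) :
    v = 0 :=
  have := H3.fitting_normal Γ
  h.fpf_of_comm _ h.fitting_comm hn h1 hv

theorem cent_of_sq {e : Γ} (he : ∀ f ∈ fittingSubgroup Γ, e * e * f = f * (e * e)) :
    ∀ f ∈ fittingSubgroup Γ, e * f = f * e := by
  intro f hf
  have hn := H3.fitting_normal Γ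
  by_contra hne
  have hf' : e * f * e⁻¹ ∈ fittingSubgroup Γ := hn.conj_mem _ hf e
  have hy1 : f⁻¹ * (e * f * e⁻¹) ≠ 1 := fun h1 => hne (by
    rw [inv_mul_eq_one] at h1
    calc e * f = e * f * e⁻¹ * e := by group
      _ = f * e := by rw [← h1])
  have hdt : dt V p (f⁻¹ * (e * f * e⁻¹)) = 1 := dt_commutator p (by
    have : f⁻¹ * (e * f * e⁻¹) = ⁅f⁻¹, e⁆ := by simp [commutatorElement_def, mul_assoc]
    rw [this]; exact commutator_mem_commutator (mem_top _) (mem_top _))
  obtain ⟨v, hv0, hv⟩ := h.exists_fix (g := e) hdt (by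
    have h1 : e * (f⁻¹ * (e * f * e⁻¹)) * e⁻¹ = (e * f * e⁻¹)⁻¹ * (e * e * f * (e * e)⁻¹) := by
      group
    rw [h1, he f hf, mul_inv_cancel_right, mul_inv_rev f⁻¹, inv_inv])
  exact hv0 (h.fitting_fpf (mul_mem (inv_mem hf) hf') hy1 hv)

/-! ### Weights of commuting involutions -/

omit [Finite Γ] in
theorem exists_eigen (s : Finset Γ) {a : Γ} (ha : a * a = 1) (ha1 : a ≠ 1)
    (hs : ∀ x ∈ s, x * x = 1 ∧ x * a = a * x ∧ ∀ y ∈ s, x * y = y * x) :
    ∃ v : V, v ≠ 0 ∧ a • v = -v ∧ ∀ x ∈ s, ∃ c : ZMod p, x • v = c • v := by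
  classical
  induction s using Finset.induction_on with
  | empty =>
    obtain ⟨w, hw⟩ : ∃ w : V, a • w ≠ w := by
      by_contra hn
      push Not at hn
      exact ha1 (h.tl.faithful a hn)
    exact ⟨a • w - w, sub_ne_zero.2 hw, by rw [smul_sub, ← mul_smul, ha, one_smul, neg_sub],
      fun x hx => absurd hx (by simp)⟩
  | insert x s hx ih =>
    obtain ⟨v, hv0, hva, hvs⟩ := ih fun y hy =>
      ⟨(hs y (by simp [hy])).1, (hs y (by simp [hy])).2.1,
        fun z hz => (hs y (by simp [hy])).2.2 z (by simp [hz])⟩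
    obtain ⟨hx1, hx2, hx3⟩ := hs x (by simp)
    by_cases hxv : x • v = v
    · refine ⟨v, hv0, hva, fun y hy => ?_⟩
      rcases Finset.mem_insert.1 hy with rfl | hy
      · exact ⟨1, by rw [hxv, one_smul]⟩
      · exact hvs y hy
    · refine ⟨x • v - v, sub_ne_zero.2 hxv, ?_, fun y hy => ?_⟩
      · rw [smul_sub, ← mul_smul, ← hx2, mul_smul, hva, smul_neg]; abel
      · rcases Finset.mem_insert.1 hy with rfl | hy
        · exact ⟨-1, by rw [smul_sub, ← mul_smul, hx1, one_smul, neg_smul, one_smul, neg_sub]⟩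
        · obtain ⟨c, hc⟩ := hvs y hy
          exact ⟨c, by rw [smul_sub, ← mul_smul, ← hx3 y (by simp [hy]), mul_smul, hc,
            smul_zsmul p, smul_sub]⟩

omit [Finite Γ] h in
theorem card_le_finrank {J I : Type*} [Fintype I] (f : J → Γ) (hf : ∀ i j, f i * f j = f j * f i)
    (v : I → V) (hv : ∀ i, v i ≠ 0) (χ : I → J → ZMod p) (hχ : Function.Injective χ)
    (he : ∀ i j, f j • v i = χ i j • v i) : Fintype.card I ≤ Module.finrank (ZMod p) V := by
  have h1 := Module.End.independent_iInf_maxGenEigenspace_of_forall_mapsTo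
    (fun j => lin V p (f j)) (fun i j φ =>
      Module.End.mapsTo_maxGenEigenspace_of_comm (by
        change lin V p (f j) * lin V p (f i) = lin V p (f i) * lin V p (f j)
        rw [← map_mul, ← map_mul, hf]) φ)
  have h2 := iSupIndep.linearIndependent _ (h1.comp hχ) (v := v) (fun i => by
    simp only [Function.comp, Submodule.mem_iInf]
    intro j
    exact Module.End.eigenspace_le_maxGenEigenspace
      (Module.End.mem_eigenspace_iff.2 (he i j))) hv
  exact h2.fintype_card_le_finrank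

end TL

end Cfsg.Agent.H50.TT3
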