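import Cfsg.Agent.H53.UwDefs
import Mathlib.Analysis.RCLike.Basic

/-!
Project UW: the Weil character is a character.
-/

set_option autoImplicit false
set_option linter.unusedSectionVars false

namespace Cfsg.Agent.H50.UwWeil

open Module Cfsg.Agent.H31 Cfsg.Agent.H53.Uw
open scoped ComplexConjugate

universe u

variable {E V : Type u} [Field E] [Fintype E] [AddCommGroup V] [Module E V] [Fintype V]
  [DecidableEq V] {σ : E →+* E} {B : V →ₛₗ[σ] V →ₗ[E] E} {q : ℕ} {ψ : AddChar E ℂ}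

theorem iso (g : isom B) (x y : V) : B (g.1 x) (g.1 y) = B x y := mem_isom.1 g.2 x y

variable (B ψ) in
/-- The Gauss sum of a pair. -/
noncomputable def FF (g h : isom B) : ℂ := ∑ v : V, ∑ w : V,
  if g.1 v - v + (h.1 w - w) = 0 then ψ (B v (g.1 v - v) + B (g.1 v - v) w) else 0

theorem pol (g : isom B) (v v' : V) :
    B (g.1 v' - v') v + B v' (g.1 v - v) = -B (g.1 v' - v') (g.1 v - v) := by
  simp only [map_sub, LinearMap.sub_apply, iso]; ring

theorem card_fx (hs : St B q) (g : isom B) :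
    (∑ v : V, if g.1 v - v = 0 then (1 : ℂ) else 0) = (q : ℂ) ^ (2 * finrank E (fx g.1)) := by
  rw [Finset.sum_boole]
  have h1 : Nat.card (fx g.1) = (q ^ 2) ^ finrank E (fx g.1) := by
    rw [Module.natCard_eq_pow_finrank (K := E), Nat.card_eq_fintype_card, hs.card]
  rw [pow_mul, ← Nat.cast_pow, ← Nat.cast_pow, ← h1, Nat.cast_inj, ← Fintype.card_subtype,
    ← Nat.card_eq_fintype_card]
  exact Nat.card_congr (Equiv.subtypeEquivRight fun v => by rw [mem_fx, sub_eq_zero])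

theorem card_V (hs : St B q) : (Fintype.card V : ℂ) = (q : ℂ) ^ (2 * finrank E V) := by
  rw [Module.card_eq_pow_finrank (K := E), hs.card, pow_mul]; push_cast; rfl

theorem FF_inv (hs : St B q) (g : isom B) :
    FF B ψ g g⁻¹ = (q : ℂ) ^ (2 * (finrank E V + finrank E (fx g.1))) := by
  have h1 : ∀ v : V, (∑ w : V, if g.1 v - v + ((g⁻¹).1 w - w) = 0 then
      ψ (B v (g.1 v - v) + B (g.1 v - v) w) else 0) = (q : ℂ) ^ (2 * finrank E (fx g.1)) := by
    intro v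
    rw [← card_fx hs g, ← (Equiv.subLeft (g.1 v)).sum_comp]
    refine Finset.sum_congr rfl fun f _ => ?_
    have h2 : g.1 v - v + ((g⁻¹).1 (g.1 v - f) - (g.1 v - f)) = 0 ↔ g.1 f - f = 0 := by
      change g.1 v - v + (g.1⁻¹ (g.1 v - f) - (g.1 v - f)) = 0 ↔ _
      rw [map_sub, inv_apply_apply, ← g.1.map_eq_zero_iff, map_add, map_sub, map_sub, map_sub,
        map_sub, apply_inv_apply]
      constructor <;> intro h <;> rw [← h] <;> abel
    simp only [Equiv.subLeft_apply, h2]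
    split_ifs with h3
    · have h4 := iso g v f
      rw [sub_eq_zero.1 h3] at h4
      have : B v (g.1 v - v) + B (g.1 v - v) (g.1 v - f) = 0 := by
        simp only [map_sub, LinearMap.sub_apply, iso, h4]; ring
      rw [this, AddChar.map_zero_eq_one]
    · rfl
  rw [FF, Finset.sum_congr rfl fun v _ => h1 v, Finset.sum_const, Finset.card_univ, nsmul_eq_mul,
    card_V hs, ← pow_add, mul_add]

theorem skew (hs : St B q) (g h : isom B) {v w v' w' : V} (e : g.1 v - v + (h.1 w - w) = 0)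
    (e' : g.1 v' - v' + (h.1 w' - w') = 0) :
    σ (B v (g.1 v' - v') + B (g.1 v - v) w') = -(B v' (g.1 v - v) + B (g.1 v' - v') w) := by
  have h1 := pol g v v'
  have h2 := pol h w w'
  rw [← neg_eq_iff_add_eq_zero] at e e'
  rw [← e, ← e', neg_left, map_neg, neg_left, map_neg] at h2
  rw [map_add, hs.herm.symm, hs.herm.symm]
  linear_combination h1 - h2

theorem FF_pow (gauss : GaussStmt.{u}) (hs : St B q) (hk : Sk σ ψ) (g h : isom B) :
    ∃ m : ℕ, FF B ψ g h = (-(q : ℂ)) ^ m := by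
  let a : V × V →ₗ[E] V := ((g.1 : V →ₗ[E] V) - LinearMap.id).comp (LinearMap.fst E V V)
  let b : V × V →ₗ[E] V := ((h.1 : V →ₗ[E] V) - LinearMap.id).comp (LinearMap.snd E V V)
  let U := LinearMap.ker (a + b)
  have hU : ∀ x : V × V, x ∈ U ↔ g.1 x.1 - x.1 + (h.1 x.2 - x.2) = 0 := fun x => Iff.rfl
  let γ : U →ₛₗ[σ] U →ₗ[E] E :=
    (B.compl₂ (a.comp U.subtype)).comp ((LinearMap.fst E V V).comp U.subtype) +
      (B.compl₂ ((LinearMap.snd E V V).comp U.subtype)).comp (a.comp U.subtype)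
  have hγ : ∀ x y : U, γ x y = B x.1.1 (g.1 y.1.1 - y.1.1) + B (g.1 x.1.1 - x.1.1) y.1.2 :=
    fun _ _ => rfl
  refine ⟨_, Eq.trans ?_ (gauss E U σ q ψ γ hs.card hs.pow hk fun x y => ?_)⟩
  · classical
    rw [finsum_eq_sum_of_fintype, FF, ← Fintype.sum_prod_type', ← Finset.sum_filter]
    exact Finset.sum_subtype _ (fun x => by simp [hU])
      fun x : V × V => ψ (B x.1 (g.1 x.1 - x.1) + B (g.1 x.1 - x.1) x.2)
  · rw [hγ, hγ]; exact skew hs g h x.2 y.2

theorem FF_swap (hs : St B q) (g h : isom B) : FF B ψ h⁻¹ g⁻¹ = conj (FF B ψ g h) := by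
  rw [FF, FF, Finset.sum_comm, ← g.1.toEquiv.sum_comp, map_sum]
  refine Finset.sum_congr rfl fun v _ => ?_
  rw [← h.1.toEquiv.sum_comp, map_sum]
  refine Finset.sum_congr rfl fun w _ => ?_
  change (if h.1⁻¹ (h.1 w) - h.1 w + (g.1⁻¹ (g.1 v) - g.1 v) = 0 then
    ψ (B (h.1 w) (h.1⁻¹ (h.1 w) - h.1 w) + B (h.1⁻¹ (h.1 w) - h.1 w) (g.1 v)) else 0) = _
  rw [inv_apply_apply, inv_apply_apply]
  have h1 : w - h.1 w + (v - g.1 v) = 0 ↔ g.1 v - v + (h.1 w - w) = 0 := by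
    rw [← neg_eq_zero]
    constructor <;> intro e <;> rw [← e] <;> abel
  simp only [h1]
  split_ifs with e
  · rw [← AddChar.map_neg_eq_conj, ← skew hs g h e e, map_add σ, hs.herm.symm, hs.herm.symm]
    have h2 : w - h.1 w = g.1 v - v := by rw [eq_neg_of_add_eq_zero_left e, neg_sub]
    have h3 : h.1 w = w - (g.1 v - v) := by rw [← h2]; abel
    have h4 : B (g.1 v - v) (g.1 v) = B (g.1 v - v) v + B (g.1 v - v) (g.1 v - v) := by
      rw [← map_add, add_sub_cancel]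
    rw [h2, h3, sub_left B w, h4]
    congr 1
    ring
  · rw [map_zero]

theorem fx_inv (g : isom B) : fx (g⁻¹).1 = fx g.1 := by
  ext v
  rw [mem_fx, mem_fx]
  change g.1⁻¹ v = v ↔ _
  rw [← g.1.injective.eq_iff, apply_inv_apply, eq_comm]

section Op

variable {M : Type} [AddCommGroup M] [Module ℂ M] [FiniteDimensional ℂ M] {e : V → Module.End ℂ M}

variable (B ψ e) in
/-- The intertwining operator. -/
noncomputable def S (g : isom B) : Module.End ℂ M := ∑ v : V, ψ (-B (g.1 v - v) v) • e (g.1 v - v)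

theorem S_e (he : ∀ u v, e u * e v = ψ (B u v) • e (u + v)) (g : isom B) (w : V) :
    S B ψ e g * e w = e (g.1 w) * S B ψ e g := by
  rw [S, Finset.sum_mul, Finset.mul_sum, ← Equiv.sum_comp (Equiv.addLeft w)]
  refine Finset.sum_congr rfl fun v _ => ?_
  rw [smul_mul_assoc, mul_smul_comm, he, he, smul_smul, smul_smul, ← AddChar.map_add_eq_mul,
    ← AddChar.map_add_eq_mul, Equiv.coe_addLeft]
  dsimp only
  congr 2
  · simp only [map_sub, map_add, LinearMap.sub_apply, LinearMap.add_apply, iso]; ring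
  · rw [map_add]; abel

theorem tr_e (h0 : e 0 = 1) (ht : ∀ v, v ≠ 0 → LinearMap.trace ℂ M (e v) = 0) (v : V) :
    LinearMap.trace ℂ M (e v) = if v = 0 then (finrank ℂ M : ℂ) else 0 := by
  split_ifs with h
  · rw [h, h0, LinearMap.trace_one]
  · exact ht v h

theorem tr_S (hs : St B q) (h0 : e 0 = 1) (ht : ∀ v, v ≠ 0 → LinearMap.trace ℂ M (e v) = 0)
    (g : isom B) :
    LinearMap.trace ℂ M (S B ψ e g) = finrank ℂ M * (q : ℂ) ^ (2 * finrank E (fx g.1)) := by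
  rw [S, map_sum, ← card_fx hs g, Finset.mul_sum]
  refine Finset.sum_congr rfl fun v _ => ?_
  rw [map_smul, tr_e h0 ht]
  split_ifs with h
  · simp [h]
  · simp

theorem tr_SS (h0 : e 0 = 1) (he : ∀ u v, e u * e v = ψ (B u v) • e (u + v))
    (ht : ∀ v, v ≠ 0 → LinearMap.trace ℂ M (e v) = 0) (g h : isom B) :
    LinearMap.trace ℂ M (S B ψ e g * S B ψ e h) = finrank ℂ M * FF B ψ g h := by
  rw [S, S, Finset.sum_mul_sum, FF, map_sum, Finset.mul_sum]
  refine Finset.sum_congr rfl fun v _ => ?_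
  rw [map_sum, Finset.mul_sum]
  refine Finset.sum_congr rfl fun w _ => ?_
  rw [smul_mul_smul_comm, he, smul_smul, map_smul, tr_e h0 ht, ← AddChar.map_add_eq_mul,
    ← AddChar.map_add_eq_mul]
  split_ifs with h1
  · rw [smul_eq_mul, mul_comm]
    congr 2
    have h2 := pol g v v
    rw [eq_neg_of_add_eq_zero_right h1, neg_left, map_neg]
    linear_combination -h2
  · simp

end Op

theorem two_le (hs : St B q) : 2 ≤ q := by
  have h1 : 1 < q ^ 2 := hs.card ▸ Fintype.one_lt_card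
  by_contra h
  interval_cases q <;> simp at h1 h

theorem eq_one_of_sq (hq : 2 ≤ q) {β : ℂ} {i j : ℕ} (h : β * (-(q : ℂ)) ^ i = (-(q : ℂ)) ^ j)
    (h2 : β * β = 1) : β = 1 := by
  have h0 : (-(q : ℂ)) ≠ 0 := by simp; omega
  have h3 : ((q ^ 2) ^ i : ℕ) = (q ^ 2) ^ j := by
    apply Nat.cast_injective (R := ℂ)
    push_cast
    rw [← neg_sq, ← pow_mul, ← pow_mul, mul_comm, mul_comm 2, pow_mul, pow_mul, ← h]
    linear_combination (-((-(q : ℂ)) ^ i) ^ 2) * h2
  have h4 := Nat.pow_right_injective (show 2 ≤ q ^ 2 by nlinarith) h3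
  rw [h4] at h
  exact mul_right_cancel₀ (pow_ne_zero j h0) (by rw [h, one_mul])

theorem exists_rep (gauss : GaussStmt.{u}) (hs : St B q) (hk : Sk σ ψ) {M : Type} [AddCommGroup M]
    [Module ℂ M] [FiniteDimensional ℂ M] {e : V → Module.End ℂ M} (h0 : e 0 = 1)
    (he : ∀ u v, e u * e v = ψ (B u v) • e (u + v))
    (ht : ∀ v, v ≠ 0 → LinearMap.trace ℂ M (e v) = 0)
    (hc : ∀ T : Module.End ℂ M, (∀ v, T * e v = e v * T) → ∃ c : ℂ, T = c • 1)
    (hd : (finrank ℂ M : ℂ) = (q : ℂ) ^ finrank E V) :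
    ∃ ρ : Representation ℂ (isom B) M, ρ.character = om B q := by
  have hq := two_le hs
  have hq0 : (q : ℂ) ≠ 0 := by simp; omega
  have hd0 : (q : ℂ) ^ finrank E V ≠ 0 := pow_ne_zero _ hq0
  obtain ⟨a, haa⟩ : ∃ a : isom B → ℂ, ∀ g, a g = (-(q : ℂ)) ^ (finrank E V + finrank E (fx g.1)) :=
    ⟨_, fun _ => rfl⟩
  have ha : ∀ g, a g ≠ 0 := fun g => haa g ▸ pow_ne_zero _ (neg_ne_zero.2 hq0)
  have hai : ∀ g, a g⁻¹ = a g := fun g => by rw [haa, haa, fx_inv]
  obtain ⟨ρ, hρρ⟩ : ∃ ρ : isom B → Module.End ℂ M, ∀ g, ρ g = (a g)⁻¹ • S B ψ e g :=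
    ⟨_, fun _ => rfl⟩
  have hρ : ∀ g w, ρ g * e w = e (g.1 w) * ρ g := fun g w => by
    rw [hρρ, smul_mul_assoc, mul_smul_comm, S_e he]
  have hs1 : ((-1 : ℂ) ^ finrank E V) * (-1) ^ finrank E V = 1 := by rw [← mul_pow]; simp
  have htr : ∀ g, LinearMap.trace ℂ _ (ρ g) = om B q g := fun g => by
    rw [hρρ, map_smul, tr_S hs h0 ht, hd, om, smul_eq_mul, inv_mul_eq_iff_eq_mul₀ (ha g), haa,
      pow_add, neg_pow (q : ℂ) (finrank E V), pow_mul, ← neg_sq, ← pow_mul, two_mul, pow_add]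
    linear_combination (-(q : ℂ) ^ finrank E V * (-(q : ℂ)) ^ finrank E (fx g.1) *
      (-(q : ℂ)) ^ finrank E (fx g.1)) * hs1
  have hom : ∀ g, om B q g ≠ 0 := fun g =>
    mul_ne_zero (pow_ne_zero _ (by simp)) (pow_ne_zero _ (neg_ne_zero.2 hq0))
  have htr2 : ∀ g h, LinearMap.trace ℂ _ (ρ g * ρ h) =
      (a g * a h)⁻¹ * ((q : ℂ) ^ finrank E V * FF B ψ g h) := fun g h => by
    rw [hρρ, hρρ, smul_mul_smul_comm, map_smul, tr_SS h0 he ht, hd, smul_eq_mul, mul_inv]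
  have hinv : ∀ g, ρ g * ρ g⁻¹ = 1 := fun g => by
    obtain ⟨c, h1⟩ := hc (ρ g * ρ g⁻¹) fun w => by
      rw [mul_assoc, hρ, ← mul_assoc, hρ, mul_assoc]
      exact congrArg (fun x => e x * _) (apply_inv_apply g.1 w)
    have h2 := htr2 g g⁻¹
    rw [h1, map_smul, LinearMap.trace_one, hd, FF_inv hs, hai, smul_eq_mul, pow_mul, ← neg_sq,
      ← pow_mul, two_mul, pow_add, ← haa, mul_left_comm,
      inv_mul_cancel₀ (mul_ne_zero (ha g) (ha g)), mul_comm] at h2
    rw [h1, mul_left_cancel₀ hd0 h2, one_smul]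
  have hβ : ∀ g h, ∃ β : ℂ, ρ g * ρ h = β • ρ (g * h) := fun g h => by
    obtain ⟨c, h1⟩ := hc (ρ (g * h)⁻¹ * (ρ g * ρ h)) fun w => by
      rw [mul_assoc, mul_assoc, hρ, ← mul_assoc (ρ g), hρ, ← mul_assoc, ← mul_assoc, hρ]
      simp only [mul_assoc]
      exact congrArg (fun x => e x * _) (inv_apply_apply (g * h).1 w)
    exact ⟨c, by rw [← one_mul (ρ g * ρ h), ← hinv (g * h), mul_assoc, h1, mul_smul_comm, mul_one]⟩
  have hmul : ∀ g h, ρ (g * h) = ρ g * ρ h := fun g h => by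
    obtain ⟨β, h1⟩ := hβ g h
    obtain ⟨β', h2⟩ := hβ h⁻¹ g⁻¹
    obtain ⟨m, hm⟩ := FF_pow (ψ := ψ) gauss hs hk g h
    have h3 := htr2 g h
    have h4 := htr2 h⁻¹ g⁻¹
    rw [h1, map_smul, htr, hm, smul_eq_mul] at h3
    rw [h2, map_smul, htr, FF_swap hs, hm, map_pow, map_neg, map_natCast, hai, hai, mul_comm (a h),
      ← h3, ← mul_inv_rev, om, fx_inv, smul_eq_mul] at h4
    have h5 : β' = β := mul_right_cancel₀ (hom _) h4
    have h6 : ρ g * ρ h * (ρ h⁻¹ * ρ g⁻¹) = 1 := by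
      rw [mul_assoc, ← mul_assoc (ρ h), hinv, one_mul, hinv]
    rw [h1, h2, ← mul_inv_rev, smul_mul_smul_comm, hinv, h5] at h6
    have h7 := congrArg (LinearMap.trace ℂ M) h6
    rw [map_smul, LinearMap.trace_one, hd, smul_eq_mul, mul_eq_right₀ hd0] at h7
    rw [h1, eq_one_of_sq hq (i := finrank E (fx (g * h).1) + (finrank E V + finrank E (fx g.1)) +
      (finrank E V + finrank E (fx h.1))) (j := finrank E V + m) ?_ h7, one_smul]
    rw [eq_inv_mul_iff_mul_eq₀ (mul_ne_zero (ha g) (ha h)), om] at h3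
    rw [pow_add, pow_add, ← haa, ← haa, pow_add, neg_pow (q : ℂ) (finrank E V)]
    linear_combination (-1) ^ finrank E V * h3 -
      β * (-(q : ℂ)) ^ finrank E (fx (g * h).1) * a g * a h * hs1
  refine ⟨⟨⟨ρ, ?_⟩, hmul⟩, funext htr⟩
  have h1 := hinv 1
  rwa [← hmul, mul_inv_cancel] at h1

theorem weil (gauss : GaussStmt.{u}) (tw : TwStmt.{u}) (kit : KitStmt.{u}) : WeilStmt.{u} := by
  intro E V _ _ _ _ _ σ B q hs
  classical
  have := Fintype.ofFinite V
  obtain ⟨ψ, hk⟩ := (kit E V σ B q hs).1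
  obtain ⟨e, h0, he, ht, hc⟩ := tw E V σ B q hs ψ hk
  exact ⟨_, exists_rep gauss hs hk h0 he ht hc (by simp)⟩

end Cfsg.Agent.H50.UwWeil
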